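import Mathlib
import Cfsg.Agent.H37.BenderSymm
import Cfsg.Agent.H12.Subnormal

set_option autoImplicit false
set_option linter.unusedSectionVars false

/-!
# Bender's maximal subgroup theorem (helper37, for S1312)

`bender_max` : in a finite simple group, distinct maximal subgroups `M`, `N` with `F*(M) ≤ N` and
`F*(N) ≤ M` have `F*(M)`, `F*(N)` both `p`-groups for one prime `p`.
-/

namespace Cfsg.Agent.H37.Bender

open Cfsg Subgroup Cfsg.Agent.H54

universe u

variable {G : Type u} [Group G] [Finite G]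

theorem le_normalizer_FsOf (M : Subgroup G) : M ≤ normalizer ((FsOf M : Subgroup G) : Set G) :=
  le_normalizer_map_subtype M (generalizedFittingSubgroup ↥M)

theorem FsOf_le (M : Subgroup G) : FsOf M ≤ M := by
  rintro _ ⟨x, -, rfl⟩; exact x.2

/-- An element of `N` centralizing `F*(N)` lies in `F*(N)`. -/
theorem mem_FsOf_of_centralizes {N : Subgroup G} {y : G} (hy : y ∈ N)
    (h : ∀ f ∈ FsOf N, y * f = f * y) : y ∈ FsOf N := by
  have hcen : (⟨y, hy⟩ : N) ∈
      centralizer ((generalizedFittingSubgroup ↥N : Subgroup N) : Set N) := by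
    rw [Subgroup.mem_centralizer_iff]
    intro g hg
    apply Subtype.ext
    exact (h _ ⟨g, hg, rfl⟩).symm
  exact ⟨⟨y, hy⟩, Cfsg.Agent.H27.centralizer_genFitting_le hcen, rfl⟩

/-- If `F*(M) ≤ N` and `F*(N) ≤ M`, every component of `M` is a component of `N`. -/
theorem component_transfer {M N : Subgroup G} (h1 : FsOf M ≤ N) (h2 : FsOf N ≤ M)
    {K : Subgroup ↥M} (hK : IsComponent K) : K.map M.subtype ≤ EOf N := by
  have hKE : K.map M.subtype ≤ EOf M :=
    Subgroup.map_mono (Cfsg.Agent.H27.isComponent_le_layer hK)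
  have hKM : K.map M.subtype ≤ M := hKE.trans (EOf_le M)
  have hKN : K.map M.subtype ≤ N := (hKE.trans (EOf_le_FsOf M)).trans h1
  have hKD : K.map M.subtype ≤ M ⊓ N := le_inf hKM hKN
  have hFD : FsOf N ≤ M ⊓ N := le_inf h2 (FsOf_le N)
  have hq : IsQuasisimple ↥(K.map M.subtype) :=
    Cfsg.Agent.H27.quasisimple_of_mulEquiv
      (K.equivMapOfInjective M.subtype M.subtype_injective) hK.2
  have hsM : Cfsg.Agent.H12.SubnIn (K.map M.subtype) M := Cfsg.Agent.H12.subnIn_map_subtype hK.1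
  have hsD : Cfsg.Agent.H12.SubnIn (K.map M.subtype) (M ⊓ N) := hsM.of_le hKD inf_le_left
  have hcD : IsComponent ((K.map M.subtype).subgroupOf (M ⊓ N)) :=
    ⟨hsD.isSubnormal_subgroupOf, Cfsg.Agent.H27.isQuasisimple_subgroupOf hKD hq⟩
  have hnD : ((FsOf N).subgroupOf (M ⊓ N)).Normal :=
    Subgroup.normal_subgroupOf_of_le_normalizer (inf_le_right.trans (le_normalizer_FsOf N))
  have hKF : K.map M.subtype ≤ FsOf N := by
    rcases Cfsg.Agent.H27.component_normal_le_or_comm _ ((FsOf N).subgroupOf (M ⊓ N)) hcD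
      with h | h
    · exact Cfsg.Agent.H27.le_of_subgroupOf_le hKD h
    · have hc := Cfsg.Agent.H27.comm_eq_bot_of_subgroupOf hKD hFD h
      intro k hk
      apply mem_FsOf_of_centralizes (hKN hk)
      intro f hf
      exact Cfsg.Agent.H27.comm_of_comm_eq_bot hc hk hf
  have hsF : Cfsg.Agent.H12.SubnIn (K.map M.subtype) (FsOf N) := hsD.of_le hKF hFD
  have hsN : Cfsg.Agent.H12.SubnIn (K.map M.subtype) N :=
    hsF.trans (Cfsg.Agent.H12.SubnIn.of_normal (FsOf_le N) (le_normalizer_FsOf N))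
  have hcN : IsComponent ((K.map M.subtype).subgroupOf N) :=
    ⟨hsN.isSubnormal_subgroupOf, Cfsg.Agent.H27.isQuasisimple_subgroupOf hKN hq⟩
  have hle := Cfsg.Agent.H27.isComponent_le_layer hcN
  have := Subgroup.map_mono (f := N.subtype) hle
  rwa [Subgroup.map_subgroupOf_eq_of_le hKN] at this

theorem EOf_le_EOf {M N : Subgroup G} (h1 : FsOf M ≤ N) (h2 : FsOf N ≤ M) : EOf M ≤ EOf N := by
  show (layer ↥M).map M.subtype ≤ EOf N
  rw [Subgroup.map_le_iff_le_comap]
  apply sSup_le
  intro K hK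
  rw [← Subgroup.map_le_iff_le_comap]
  exact component_transfer h1 h2 hK

/-- With trivial layer, `F*(A) ≤ B` gives `A ⇝ B` (for distinct maximal subgroups). -/
theorem leadsTo_of_FsOf_le {A B : Subgroup G} (hA : IsCoatom A) (hB : IsCoatom B) (hAB : A ≠ B)
    (hEA : EOf A = ⊥) (hle : FsOf A ≤ B) : Cfsg.leadsTo A B := by
  have hl : layer ↥A = ⊥ :=
    (Subgroup.map_eq_bot_iff_of_injective _ (Subgroup.subtype_injective _)).mp hEA
  have e : generalizedFittingSubgroup ↥A = fittingSubgroup ↥A := by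
    unfold generalizedFittingSubgroup
    rw [hl, bot_sup_eq]
  refine ⟨FOf A, ?_, le_rfl, inf_le_left.trans hle⟩
  intro hbot
  have hFs : generalizedFittingSubgroup ↥A = ⊥ := by
    rw [e]
    exact (Subgroup.map_eq_bot_iff_of_injective _ (Subgroup.subtype_injective _)).mp hbot
  have hAbot : A = ⊥ := by
    rw [eq_bot_iff]
    intro a ha
    have hmem : (⟨a, ha⟩ : A) ∈ generalizedFittingSubgroup ↥A := by
      apply Cfsg.Agent.H27.centralizer_genFitting_le
      rw [hFs, Subgroup.mem_centralizer_iff]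
      intro g hg
      rw [SetLike.mem_coe, Subgroup.mem_bot] at hg
      rw [hg, one_mul, mul_one]
    rw [hFs, Subgroup.mem_bot] at hmem
    exact congrArg Subtype.val hmem
  have hlt : A < B := by
    rw [hAbot]
    exact bot_lt_iff_ne_bot.mpr (fun hB0 => hAB (hAbot.trans hB0.symm))
  exact hB.1 (hA.2 B hlt)

/-- **Bender's maximal subgroup theorem.** -/
theorem bender_max [IsSimpleGroup G] {M N : Subgroup G} (hM : IsCoatom M) (hN : IsCoatom N)
    (hMN : M ≠ N) (h1 : FsOf M ≤ N) (h2 : FsOf N ≤ M) :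
    ∃ p : ℕ, p.Prime ∧ IsPGroup p ↥(generalizedFittingSubgroup ↥M) ∧
      IsPGroup p ↥(generalizedFittingSubgroup ↥N) := by
  have hE : EOf M = EOf N := le_antisymm (EOf_le_EOf h1 h2) (EOf_le_EOf h2 h1)
  have hEM : EOf M = ⊥ := by
    by_contra hne
    apply hMN
    have e1 := normalizer_eq_of_coatom hM hne (EOf_le M) (le_normalizer_EOf M)
    have e2 := normalizer_eq_of_coatom hN (hE ▸ hne) (EOf_le N) (le_normalizer_EOf N)
    rw [hE] at e1
    exact e1.symm.trans e2
  have hEN : EOf N = ⊥ := hE ▸ hEM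
  exact (bender_symm hM hN (leadsTo_of_FsOf_le hM hN hMN hEM h1)
    (leadsTo_of_FsOf_le hN hM (Ne.symm hMN) hEN h2)).resolve_left hMN

end Cfsg.Agent.H37.Bender
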