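import Mathlib

set_option autoImplicit false

/-!
# Galois descent with a normal basis

A field `K` with a faithful action of a finite group `H`, acting on `V` through `ι`, with `H` acting
semilinearly on `V` through `σ`.  If `V` is generated by `H`-fixed vectors then there is `θ ∈ K`
such that every vector is uniquely `Σ_h (h • θ) w_h` with the `w_h` fixed by `H`.
-/

namespace Cfsg.Agent.H37.FF

theorem descent0 {k K H V : Type*} [Field k] [Field K] [Group H] [Fintype H]
    [MulSemiringAction H K] [FaithfulSMul H K] [AddCommGroup V] [Module k V]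
    (ι : K →+* Module.End k V) (σ : H → Module.End k V)
    (hsemi : ∀ h x v, σ h (ι x v) = ι (h • x) (σ h v))
    (hgen : ∀ v, v ∈ AddSubgroup.closure {y : V | ∃ x u, (∀ h, σ h u = u) ∧ y = ι x u}) :
    ∃ θ : K, (∀ v, ∃ w : H → V, (∀ h g, σ g (w h) = w h) ∧ v = ∑ h, ι (h • θ) (w h)) ∧
      (∀ w : H → V, (∀ h g, σ g (w h) = w h) → ∑ h, ι (h • θ) (w h) = 0 → ∀ h, w h = 0) := by
  classical
  obtain ⟨θ, hθ⟩ := exists_linearIndependent_algEquiv_apply (FixedPoints.subfield H K) K
  have hθ' : LinearIndependent (FixedPoints.subfield H K) (fun h : H => h • θ) :=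
    hθ.comp (FixedPoints.toAlgAutMulEquiv H K) (FixedPoints.toAlgAutMulEquiv H K).injective
  have hcard : Fintype.card H = Module.finrank (FixedPoints.subfield H K) K :=
    (FixedPoints.finrank_eq_card H K).symm
  have hspan : Submodule.span (FixedPoints.subfield H K) (Set.range fun h : H => h • θ) = ⊤ :=
    hθ'.span_eq_top_of_card_eq_finrank' hcard
  have hexp : ∀ x : K, ∃ c : H → FixedPoints.subfield H K, ∑ h, (c h : K) * (h • θ) = x := by
    intro x
    have hx : x ∈ Submodule.span (FixedPoints.subfield H K) (Set.range fun h : H => h • θ) := by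
      rw [hspan]; trivial
    obtain ⟨c, hc⟩ := (Submodule.mem_span_range_iff_exists_fun _).mp hx
    exact ⟨c, by rw [← hc]; rfl⟩
  have hfix : ∀ (c : FixedPoints.subfield H K) (g : H), g • (c : K) = c := fun c g => c.2 g
  let M : Matrix H H K := fun g h => g • (h • θ)
  have hdet : M.det ≠ 0 := by
    intro h0
    obtain ⟨v, hv, hvM⟩ := Matrix.exists_vecMul_eq_zero_iff.mpr h0
    have hvM' : ∀ h, ∑ g, v g * (g • (h • θ)) = 0 := fun h => congrFun hvM h
    have hL : ∀ x : K, ∑ g, v g * g • x = 0 := by
      intro x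
      obtain ⟨c, rfl⟩ := hexp x
      have : ∀ g, v g * g • (∑ h, (c h : K) * (h • θ)) = ∑ h, (c h : K) * (v g * g • (h • θ)) := by
        intro g
        rw [Finset.smul_sum, Finset.mul_sum]
        apply Finset.sum_congr rfl
        intro h _
        rw [smul_mul', hfix]; ring
      simp only [this]
      rw [Finset.sum_comm]
      apply Finset.sum_eq_zero
      intro h _
      rw [← Finset.mul_sum, hvM' h, mul_zero]
    have hli := linearIndependent_monoidHom K K
    have hinj : Function.Injective
        (fun g : H => ((MulSemiringAction.toRingHom H K g : K →+* K) : K →* K)) := by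
      intro g g' hgg'
      apply FaithfulSMul.eq_of_smul_eq_smul (α := K)
      intro x
      exact DFunLike.congr_fun hgg' x
    have hli' := hli.comp _ hinj
    have h2 := Fintype.linearIndependent_iff.mp hli' v (by
      funext x
      simpa [Finset.sum_apply] using hL x)
    exact hv (funext h2)
  have hNM : M⁻¹ * M = 1 := Matrix.nonsing_inv_mul M (isUnit_iff_ne_zero.mpr hdet)
  refine ⟨θ, ?_, ?_⟩
  · intro v
    refine AddSubgroup.closure_induction
      (p := fun v _ => ∃ w : H → V, (∀ h g, σ g (w h) = w h) ∧ v = ∑ h, ι (h • θ) (w h))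
      ?_ ?_ ?_ ?_ (hgen v)
    · rintro y ⟨x, u, hu, rfl⟩
      obtain ⟨c, rfl⟩ := hexp x
      refine ⟨fun h => ι (c h : K) u, fun h g => ?_, ?_⟩
      · rw [hsemi, hfix, hu]
      · rw [map_sum, LinearMap.sum_apply]
        apply Finset.sum_congr rfl
        intro h _
        rw [mul_comm, map_mul]; rfl
    · exact ⟨fun _ => 0, fun _ _ => by simp, by simp⟩
    · rintro x y _ _ ⟨w, hw, rfl⟩ ⟨w', hw', rfl⟩
      exact ⟨fun h => w h + w' h, fun h g => by rw [map_add, hw, hw'],
        by simp [Finset.sum_add_distrib]⟩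
    · rintro x _ ⟨w, hw, rfl⟩
      exact ⟨fun h => -w h, fun h g => by rw [map_neg, hw], by simp⟩
  · intro w hw hsum h₀
    have h1 : ∀ g, ∑ h, ι (M g h) (w h) = 0 := by
      intro g
      have := congrArg (σ g) hsum
      rw [map_sum, map_zero] at this
      rw [← this]
      apply Finset.sum_congr rfl
      intro h _
      rw [hsemi, hw h g]
    calc w h₀ = ∑ h, ι ((M⁻¹ * M) h₀ h) (w h) := by
          rw [hNM, Finset.sum_eq_single h₀]
          · simp
          · intro b _ hb; simp [Ne.symm hb]
          · intro hb; exact absurd (Finset.mem_univ _) hb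
      _ = ∑ h, ∑ g, ι (M⁻¹ h₀ g) (ι (M g h) (w h)) := by
          apply Finset.sum_congr rfl
          intro h _
          rw [Matrix.mul_apply, map_sum, LinearMap.sum_apply]
          apply Finset.sum_congr rfl
          intro g _
          rw [map_mul]; rfl
      _ = ∑ g, ι (M⁻¹ h₀ g) (∑ h, ι (M g h) (w h)) := by
          rw [Finset.sum_comm]
          apply Finset.sum_congr rfl
          intro g _
          rw [map_sum]
      _ = 0 := by simp [h1]

/-- Descent for a commutative ring `K` all of whose nonzero elements are invertible, with `H`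
acting through an injective homomorphism into the ring automorphisms. -/
theorem descent {k K H V : Type*} [Field k] [Ring K] [Nontrivial K]
    (hcomm : ∀ x y : K, x * y = y * x) (hinv : ∀ x : K, x ≠ 0 → ∃ y, x * y = 1)
    [Group H] [Fintype H] (τ : H →* RingAut K) (hτ : Function.Injective τ)
    [AddCommGroup V] [Module k V] (ι : K →+* Module.End k V) (σ : H → Module.End k V)
    (hsemi : ∀ h x v, σ h (ι x v) = ι (τ h x) (σ h v))
    (hgen : ∀ v, v ∈ AddSubgroup.closure {y : V | ∃ x u, (∀ h, σ h u = u) ∧ y = ι x u}) :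
    ∃ θ : K, (∀ v, ∃ w : H → V, (∀ h g, σ g (w h) = w h) ∧ v = ∑ h, ι (τ h θ) (w h)) ∧
      (∀ w : H → V, (∀ h g, σ g (w h) = w h) → ∑ h, ι (τ h θ) (w h) = 0 → ∀ h, w h = 0) := by
  letI : Field K :=
    (IsField.mk (exists_pair_ne K) hcomm (fun {a} ha => hinv a ha)).toField
  letI : MulSemiringAction H K := MulSemiringAction.compHom K τ
  haveI : FaithfulSMul H K := ⟨fun {h h'} hh => hτ (RingEquiv.ext hh)⟩
  exact descent0 ι σ hsemi hgen

end Cfsg.Agent.H37.FF
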