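import Cfsg.Agent.H37.FFAct
import Cfsg.Agent.H37.FFDescent

set_option autoImplicit false

/-!
# Free action of the complement when the kernel acts through a commutative image
-/

namespace Cfsg.Agent.H37.FF

universe uk uF uH uV

namespace FA

variable {k : Type uk} {F : Type uF} {H : Type uH} {V : Type uV} [Field k] [Group F] [Group H]
  [AddCommGroup V] [Module k V] (A : FA k F H V)

/-- The subalgebra of `End V` generated by the image of `F`. -/
def R : Subalgebra k (Module.End k V) := Algebra.adjoin k (Set.range A.rF)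

theorem rF_mem_R (b : F) : A.rF b ∈ A.R := Algebra.subset_adjoin ⟨b, rfl⟩

theorem R_comm_rF (hcomm : ∀ x y : F, Commute (A.rF x) (A.rF y)) {z : Module.End k V}
    (hz : z ∈ A.R) (b : F) : Commute z (A.rF b) := by
  induction hz using Algebra.adjoin_induction with
  | mem x hx => obtain ⟨c, rfl⟩ := hx; exact hcomm c b
  | algebraMap r => exact Algebra.commute_algebraMap_left r _
  | add x y _ _ hx hy => exact hx.add_left hy
  | mul x y _ _ hx hy => exact hx.mul_left hy

theorem R_comm (hcomm : ∀ x y : F, Commute (A.rF x) (A.rF y)) {z w : Module.End k V}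
    (hz : z ∈ A.R) (hw : w ∈ A.R) : Commute z w := by
  induction hw using Algebra.adjoin_induction with
  | mem x hx => obtain ⟨c, rfl⟩ := hx; exact A.R_comm_rF hcomm hz c
  | algebraMap r => exact Algebra.commute_algebraMap_right r _
  | add x y _ _ hx hy => exact hx.add_right hy
  | mul x y _ _ hx hy => exact hx.mul_right hy

theorem rH_inv_mul (h : H) : A.rH h⁻¹ * A.rH h = 1 := by rw [← map_mul]; simp

theorem rH_mul_inv (h : H) : A.rH h * A.rH h⁻¹ = 1 := by rw [← map_mul]; simp

/-- Conjugation by `rH h` preserves `R`. -/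
theorem conj_mem_R (h : H) {z : Module.End k V} (hz : z ∈ A.R) :
    A.rH h * z * A.rH h⁻¹ ∈ A.R := by
  induction hz using Algebra.adjoin_induction with
  | mem x hx =>
    obtain ⟨c, rfl⟩ := hx
    have : A.rH h * A.rF c * A.rH h⁻¹ = A.rF (A.act h c) := by
      ext v
      simp only [Module.End.mul_apply]
      rw [A.compat, rep_apply_inv]
    rw [this]; exact A.rF_mem_R _
  | algebraMap r =>
    have : A.rH h * algebraMap k (Module.End k V) r * A.rH h⁻¹ = algebraMap k (Module.End k V) r := by
      rw [(Algebra.commute_algebraMap_right r (A.rH h)).eq, mul_assoc, A.rH_mul_inv, mul_one]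
    rw [this]; exact Subalgebra.algebraMap_mem _ r
  | add x y _ _ hx hy =>
    have : A.rH h * (x + y) * A.rH h⁻¹ = A.rH h * x * A.rH h⁻¹ + A.rH h * y * A.rH h⁻¹ := by
      rw [mul_add, add_mul]
    rw [this]; exact add_mem hx hy
  | mul x y _ _ hx hy =>
    have : A.rH h * (x * y) * A.rH h⁻¹ = (A.rH h * x * A.rH h⁻¹) * (A.rH h * y * A.rH h⁻¹) := by
      have h1 := A.rH_inv_mul h
      calc A.rH h * (x * y) * A.rH h⁻¹ = A.rH h * x * 1 * y * A.rH h⁻¹ := by
            simp only [mul_assoc, one_mul]
        _ = (A.rH h * x * A.rH h⁻¹) * (A.rH h * y * A.rH h⁻¹) := by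
            rw [← h1]; simp only [mul_assoc]
    rw [this]; exact mul_mem hx hy

theorem conj_mem_R' (h : H) {z : Module.End k V} (hz : z ∈ A.R) :
    A.rH h⁻¹ * z * A.rH h ∈ A.R := by
  simpa using A.conj_mem_R h⁻¹ hz

theorem R_invariant {U : Submodule k V} (hU : ∀ b, U ≤ U.comap (A.rF b)) {z : Module.End k V}
    (hz : z ∈ A.R) : ∀ u ∈ U, z u ∈ U := by
  induction hz using Algebra.adjoin_induction with
  | mem x hx => obtain ⟨c, rfl⟩ := hx; exact fun u hu => hU c hu
  | algebraMap r =>
    intro u hu
    rw [Module.algebraMap_end_apply]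
    exact U.smul_mem r hu
  | add x y _ _ hx hy => intro u hu; exact U.add_mem (hx u hu) (hy u hu)
  | mul x y _ _ hx hy => intro u hu; exact hx _ (hy u hu)

/-- The `R`-closure of a subspace `S`: vectors killed by every element of `R` killing `S`. -/
def cl (S : Submodule k V) : Submodule k V where
  carrier := {v | ∀ z ∈ A.R, (∀ s ∈ S, z s = 0) → z v = 0}
  add_mem' := by
    intro a b ha hb z hz hzS
    rw [map_add, ha z hz hzS, hb z hz hzS, add_zero]
  zero_mem' := by intro _ _ _; simp
  smul_mem' := by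
    intro c a ha z hz hzS
    rw [map_smul, ha z hz hzS, smul_zero]

theorem mem_cl {S : Submodule k V} {v : V} :
    v ∈ A.cl S ↔ ∀ z ∈ A.R, (∀ s ∈ S, z s = 0) → z v = 0 := Iff.rfl

theorem le_cl (S : Submodule k V) : S ≤ A.cl S := fun s hs z _ hzS => hzS s hs

theorem cl_R_invariant (hcomm : ∀ x y : F, Commute (A.rF x) (A.rF y)) (S : Submodule k V)
    {z : Module.End k V} (hz : z ∈ A.R) {u : V} (hu : u ∈ A.cl S) : z u ∈ A.cl S := by
  intro z' hz' hz'S
  have := (A.R_comm hcomm hz' hz).eq
  have h2 : z' (z u) = z (z' u) := by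
    rw [← Module.End.mul_apply, this, Module.End.mul_apply]
  rw [h2, hu z' hz' hz'S, map_zero]

theorem cl_rF_invariant (hcomm : ∀ x y : F, Commute (A.rF x) (A.rF y)) (S : Submodule k V)
    (b : F) : A.cl S ≤ (A.cl S).comap (A.rF b) :=
  fun _ hu => A.cl_R_invariant hcomm S (A.rF_mem_R b) hu

/-- If `S` is a minimal nonzero `F`-invariant subspace and `x ∈ R` does not kill `S`, then `x` has a
left inverse in `R` on the closure of `S`. -/
theorem exists_inv_on_cl [FiniteDimensional k V] (hcomm : ∀ x y : F, Commute (A.rF x) (A.rF y))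
    {S : Submodule k V} (hSinv : ∀ b, S ≤ S.comap (A.rF b))
    (hSmin : ∀ S' : Submodule k V, S' ≠ ⊥ → (∀ b, S' ≤ S'.comap (A.rF b)) → S' ≤ S → S' = S)
    {x : Module.End k V} (hx : x ∈ A.R) (hxS : ¬ ∀ s ∈ S, x s = 0) :
    ∃ y ∈ A.R, ∀ u ∈ A.cl S, y (x u) = u := by
  -- step 1: `x` is injective on `S`
  have hinj : ∀ s ∈ S, x s = 0 → s = 0 := by
    intro s hs hxs
    by_contra hs0
    let S' : Submodule k V := S ⊓ LinearMap.ker x
    have hS'0 : S' ≠ ⊥ := by
      intro h
      have : s ∈ S' := ⟨hs, LinearMap.mem_ker.mpr hxs⟩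
      rw [h] at this
      exact hs0 (by simpa using this)
    have hS'inv : ∀ b, S' ≤ S'.comap (A.rF b) := by
      intro b t ht
      refine ⟨hSinv b ht.1, ?_⟩
      show x (A.rF b t) = 0
      have hc := (A.R_comm_rF hcomm hx b).eq
      have : x (A.rF b t) = A.rF b (x t) := by
        rw [← Module.End.mul_apply, hc, Module.End.mul_apply]
      rw [this, LinearMap.mem_ker.mp ht.2, map_zero]
    have := hSmin S' hS'0 hS'inv inf_le_left
    apply hxS
    intro t ht
    have : t ∈ S' := by rw [this]; exact ht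
    exact LinearMap.mem_ker.mp this.2
  -- step 2: `x` maps `S` onto `S`
  have hxS' : ∀ s ∈ S, x s ∈ S := A.R_invariant hSinv hx
  have hsurj : ∀ s ∈ S, ∃ t ∈ S, x t = s := by
    let xS : S →ₗ[k] S := x.restrict hxS'
    have hxSinj : Function.Injective xS := by
      rw [← LinearMap.ker_eq_bot, LinearMap.ker_eq_bot']
      intro t ht
      apply Subtype.ext
      exact hinj t t.2 (congrArg Subtype.val ht)
    have hxSsurj := LinearMap.surjective_of_injective hxSinj
    intro s hs
    obtain ⟨t, ht⟩ := hxSsurj ⟨s, hs⟩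
    exact ⟨t, t.2, congrArg Subtype.val ht⟩
  -- step 3: the two restriction maps have the same range
  let Φ₁ : A.R →ₗ[k] (S →ₗ[k] V) := (LinearMap.lcomp k V S.subtype) ∘ₗ A.R.val.toLinearMap
  let Φₓ : A.R →ₗ[k] (S →ₗ[k] V) :=
    (LinearMap.lcomp k V (x ∘ₗ S.subtype)) ∘ₗ A.R.val.toLinearMap
  have hΦ₁ : ∀ (y : A.R) (s : S), Φ₁ y s = (y : Module.End k V) (s : V) := fun _ _ => rfl
  have hΦₓ : ∀ (y : A.R) (s : S), Φₓ y s = (y : Module.End k V) (x (s : V)) := fun _ _ => rfl
  have hker : LinearMap.ker Φₓ ≤ LinearMap.ker Φ₁ := by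
    intro y hy
    rw [LinearMap.mem_ker] at hy ⊢
    ext s
    obtain ⟨t, ht, hts⟩ := hsurj s s.2
    rw [hΦ₁, ← hts]
    have := congrArg (fun f : S →ₗ[k] V => f ⟨t, ht⟩) hy
    simpa [hΦₓ] using this
  have hrange : LinearMap.range Φₓ ≤ LinearMap.range Φ₁ := by
    rintro _ ⟨y, rfl⟩
    refine ⟨⟨(y : Module.End k V) * x, mul_mem y.2 hx⟩, ?_⟩
    ext s
    rfl
  have hfin : Module.finrank k (LinearMap.range Φ₁) ≤ Module.finrank k (LinearMap.range Φₓ) := by
    have e1 := LinearMap.finrank_range_add_finrank_ker Φ₁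
    have e2 := LinearMap.finrank_range_add_finrank_ker Φₓ
    have e3 := Submodule.finrank_mono hker
    omega
  have heq : LinearMap.range Φₓ = LinearMap.range Φ₁ :=
    Submodule.eq_of_le_of_finrank_le hrange hfin
  have h1 : Φ₁ 1 ∈ LinearMap.range Φₓ := by rw [heq]; exact ⟨1, rfl⟩
  obtain ⟨y, hy⟩ := h1
  have hyS : ∀ s ∈ S, (y : Module.End k V) (x s) = s := by
    intro s hs
    have := congrArg (fun f : S →ₗ[k] V => f ⟨s, hs⟩) hy
    simpa [hΦₓ, hΦ₁] using this
  refine ⟨y, y.2, ?_⟩
  intro u hu
  have hz : (y : Module.End k V) * x - 1 ∈ A.R := sub_mem (mul_mem y.2 hx) (one_mem _)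
  have := hu _ hz (by
    intro s hs
    simp only [LinearMap.sub_apply, Module.End.mul_apply, Module.End.one_apply]
    rw [hyS s hs, sub_self])
  simp only [LinearMap.sub_apply, Module.End.mul_apply, Module.End.one_apply] at this
  exact sub_eq_zero.mp this

/-- Separation of the closure of `S` from a translate. -/
theorem sep [FiniteDimensional k V] (hcomm : ∀ x y : F, Commute (A.rF x) (A.rF y))
    {S : Submodule k V} (hSinv : ∀ b, S ≤ S.comap (A.rF b))
    (hSmin : ∀ S' : Submodule k V, S' ≠ ⊥ → (∀ b, S' ≤ S'.comap (A.rF b)) → S' ≤ S → S' = S)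
    (h : H) : (A.cl S).map (A.rH h) = A.cl S ∨
      ∃ z ∈ A.R, (∀ u ∈ A.cl S, z u = u) ∧ (∀ u ∈ A.cl S, z (A.rH h u) = 0) := by
  by_cases hPQ : ∀ x ∈ A.R, (∀ s ∈ S, x s = 0) ↔ (∀ s ∈ S, x (A.rH h s) = 0)
  · left
    ext v
    constructor
    · rintro ⟨u, hu, rfl⟩
      intro z hz hzS
      have hz' := A.conj_mem_R' h hz
      have h1 := hu _ hz' (by
        intro s hs
        simp only [Module.End.mul_apply]
        rw [((hPQ z hz).mp hzS) s hs, map_zero])
      simp only [Module.End.mul_apply] at h1
      have := congrArg (A.rH h) h1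
      rwa [rep_apply_inv, map_zero] at this
    · intro hv
      refine ⟨A.rH h⁻¹ v, ?_, rep_apply_inv _ _ _⟩
      intro z hz hzS
      have hz'' := A.conj_mem_R h hz
      have hkill : ∀ s ∈ S, (A.rH h * z * A.rH h⁻¹) (A.rH h s) = 0 := by
        intro s hs
        simp only [Module.End.mul_apply]
        rw [rep_inv_apply, hzS s hs, map_zero]
      have h1 := hv _ hz'' ((hPQ _ hz'').mpr hkill)
      simp only [Module.End.mul_apply] at h1
      have := congrArg (A.rH h⁻¹) h1
      rwa [rep_inv_apply, map_zero] at this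
  · right
    have hex : ∃ x ∈ A.R, ((∀ s ∈ S, x s = 0) ∧ ¬ (∀ s ∈ S, x (A.rH h s) = 0)) ∨
        ((∀ s ∈ S, x (A.rH h s) = 0) ∧ ¬ (∀ s ∈ S, x s = 0)) := by
      by_contra hcon
      apply hPQ
      intro x hx
      constructor
      · intro h1
        by_contra h2
        exact hcon ⟨x, hx, Or.inl ⟨h1, h2⟩⟩
      · intro h1
        by_contra h2
        exact hcon ⟨x, hx, Or.inr ⟨h1, h2⟩⟩
    obtain ⟨x, hx, hcase | hcase⟩ := hex
    · -- `x` kills `S` but not `rH h S`
      obtain ⟨hP, hQ⟩ := hcase
      have hx' := A.conj_mem_R' h hx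
      have hx'S : ¬ ∀ s ∈ S, (A.rH h⁻¹ * x * A.rH h) s = 0 := by
        intro hall
        apply hQ
        intro s hs
        have := congrArg (A.rH h) (hall s hs)
        simp only [Module.End.mul_apply] at this
        rwa [rep_apply_inv, map_zero] at this
      obtain ⟨y', hy', hy'inv⟩ := A.exists_inv_on_cl hcomm hSinv hSmin hx' hx'S
      have hy := A.conj_mem_R h hy'
      refine ⟨1 - (A.rH h * y' * A.rH h⁻¹) * x, sub_mem (one_mem _) (mul_mem hy hx), ?_, ?_⟩
      · intro u hu
        simp only [LinearMap.sub_apply, Module.End.mul_apply, Module.End.one_apply]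
        rw [hu x hx hP]; simp
      · intro u hu
        simp only [LinearMap.sub_apply, Module.End.mul_apply, Module.End.one_apply]
        have := hy'inv u hu
        simp only [Module.End.mul_apply] at this
        rw [this, sub_self]
    · -- `x` kills `rH h S` but not `S`
      obtain ⟨hQ, hP⟩ := hcase
      obtain ⟨y, hy, hyinv⟩ := A.exists_inv_on_cl hcomm hSinv hSmin hx hP
      refine ⟨y * x, mul_mem hy hx, ?_, ?_⟩
      · intro u hu
        rw [Module.End.mul_apply]; exact hyinv u hu
      · intro u hu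
        have hx' := A.conj_mem_R' h hx
        have h1 := hu _ hx' (by
          intro s hs
          simp only [Module.End.mul_apply]
          rw [hQ s hs, map_zero])
        simp only [Module.End.mul_apply] at h1
        have h2 := congrArg (A.rH h) h1
        rw [rep_apply_inv, map_zero] at h2
        rw [Module.End.mul_apply, h2, map_zero]

theorem map_rH_mul (U : Submodule k V) (g h : H) :
    (U.map (A.rH h)).map (A.rH g) = U.map (A.rH (g * h)) := by
  rw [← Submodule.map_comp, map_mul]; rfl

/-- Separation of two translates of the closure of `S`. -/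
theorem sep2 [FiniteDimensional k V] (hcomm : ∀ x y : F, Commute (A.rF x) (A.rF y))
    {S : Submodule k V} (hSinv : ∀ b, S ≤ S.comap (A.rF b))
    (hSmin : ∀ S' : Submodule k V, S' ≠ ⊥ → (∀ b, S' ≤ S'.comap (A.rF b)) → S' ≤ S → S' = S)
    (g₁ g₂ : H) : (A.cl S).map (A.rH g₁) = (A.cl S).map (A.rH g₂) ∨
      ∃ z ∈ A.R, (∀ u ∈ A.cl S, z (A.rH g₁ u) = A.rH g₁ u) ∧
        (∀ u ∈ A.cl S, z (A.rH g₂ u) = 0) := by
  rcases A.sep hcomm hSinv hSmin (g₁⁻¹ * g₂) with h | ⟨z, hz, hz1, hz2⟩
  · left
    have := congrArg (fun W : Submodule k V => W.map (A.rH g₁)) h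
    simp only [A.map_rH_mul] at this
    rw [← this]; simp
  · right
    refine ⟨A.rH g₁ * z * A.rH g₁⁻¹, A.conj_mem_R g₁ hz, ?_, ?_⟩
    · intro u hu
      simp only [Module.End.mul_apply]
      rw [rep_inv_apply, hz1 u hu]
    · intro u hu
      simp only [Module.End.mul_apply]
      have : A.rH g₁⁻¹ (A.rH g₂ u) = A.rH (g₁⁻¹ * g₂) u := by rw [map_mul]; rfl
      rw [this, hz2 u hu, map_zero]

/-- A single element of `R` fixing one translate and killing all the different translates. -/
theorem sepAll [FiniteDimensional k V] [Fintype H] (hcomm : ∀ x y : F, Commute (A.rF x) (A.rF y))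
    {S : Submodule k V} (hSinv : ∀ b, S ≤ S.comap (A.rF b))
    (hSmin : ∀ S' : Submodule k V, S' ≠ ⊥ → (∀ b, S' ≤ S'.comap (A.rF b)) → S' ≤ S → S' = S)
    (g₀ : H) : ∃ Z ∈ A.R, (∀ u ∈ A.cl S, Z (A.rH g₀ u) = A.rH g₀ u) ∧
      ∀ g, (A.cl S).map (A.rH g) ≠ (A.cl S).map (A.rH g₀) → ∀ u ∈ A.cl S, Z (A.rH g u) = 0 := by
  classical
  have key : ∀ T : Finset H, ∃ Z ∈ A.R, (∀ u ∈ A.cl S, Z (A.rH g₀ u) = A.rH g₀ u) ∧
      ∀ g ∈ T, (A.cl S).map (A.rH g) ≠ (A.cl S).map (A.rH g₀) →
        ∀ u ∈ A.cl S, Z (A.rH g u) = 0 := by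
    intro T
    induction T using Finset.induction_on with
    | empty => exact ⟨1, one_mem _, fun u _ => rfl, fun g hg => absurd hg (Finset.notMem_empty g)⟩
    | insert g T hgT ih =>
      obtain ⟨Z, hZ, hZ1, hZ2⟩ := ih
      by_cases hg : (A.cl S).map (A.rH g) = (A.cl S).map (A.rH g₀)
      · refine ⟨Z, hZ, hZ1, ?_⟩
        intro g' hg' hne u hu
        rcases Finset.mem_insert.mp hg' with rfl | hg'T
        · exact absurd hg hne
        · exact hZ2 g' hg'T hne u hu
      · rcases A.sep2 hcomm hSinv hSmin g₀ g with h | ⟨z, hz, hz1, hz2⟩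
        · exact absurd h.symm hg
        · refine ⟨Z * z, mul_mem hZ hz, ?_, ?_⟩
          · intro u hu
            rw [Module.End.mul_apply, hz1 u hu, hZ1 u hu]
          · intro g' hg' hne u hu
            rcases Finset.mem_insert.mp hg' with rfl | hg'T
            · rw [Module.End.mul_apply, hz2 u hu, map_zero]
            · have hz' := A.conj_mem_R' g' hz
              have hu' := A.cl_R_invariant hcomm S hz' hu
              have e : z (A.rH g' u) = A.rH g' ((A.rH g'⁻¹ * z * A.rH g') u) := by
                simp only [Module.End.mul_apply]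
                rw [rep_apply_inv]
              rw [Module.End.mul_apply, e, hZ2 g' hg'T hne _ hu']
  obtain ⟨Z, hZ, hZ1, hZ2⟩ := key Finset.univ
  exact ⟨Z, hZ, hZ1, fun g hne u hu => hZ2 g (Finset.mem_univ g) hne u hu⟩

theorem conj_mul (h : H) (x y : Module.End k V) :
    A.rH h * (x * y) * A.rH h⁻¹ = (A.rH h * x * A.rH h⁻¹) * (A.rH h * y * A.rH h⁻¹) := by
  have h1 := A.rH_inv_mul h
  calc A.rH h * (x * y) * A.rH h⁻¹ = A.rH h * x * 1 * y * A.rH h⁻¹ := by
        simp only [mul_assoc, one_mul]
    _ = (A.rH h * x * A.rH h⁻¹) * (A.rH h * y * A.rH h⁻¹) := by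
        rw [← h1]; simp only [mul_assoc]

/-- Conjugation action of `H` on `R`. -/
def conjR : H →* RingAut A.R where
  toFun h :=
    { toFun := fun z => ⟨A.rH h * z * A.rH h⁻¹, A.conj_mem_R h z.2⟩
      invFun := fun z => ⟨A.rH h⁻¹ * z * A.rH h, A.conj_mem_R' h z.2⟩
      left_inv := fun z => Subtype.ext (by
        show A.rH h⁻¹ * (A.rH h * z * A.rH h⁻¹) * A.rH h = z
        calc A.rH h⁻¹ * (A.rH h * z * A.rH h⁻¹) * A.rH h
            = (A.rH h⁻¹ * A.rH h) * z * (A.rH h⁻¹ * A.rH h) := by simp only [mul_assoc]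
          _ = z := by rw [A.rH_inv_mul]; simp)
      right_inv := fun z => Subtype.ext (by
        show A.rH h * (A.rH h⁻¹ * z * A.rH h) * A.rH h⁻¹ = z
        calc A.rH h * (A.rH h⁻¹ * z * A.rH h) * A.rH h⁻¹
            = (A.rH h * A.rH h⁻¹) * z * (A.rH h * A.rH h⁻¹) := by simp only [mul_assoc]
          _ = z := by rw [A.rH_mul_inv]; simp)
      map_mul' := fun z w => Subtype.ext (A.conj_mul h z w)
      map_add' := fun z w => Subtype.ext (by
        show A.rH h * ((z : Module.End k V) + w) * A.rH h⁻¹ = _ + _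
        rw [mul_add, add_mul]) }
  map_one' := RingEquiv.ext fun z => Subtype.ext (by
    show A.rH 1 * (z : Module.End k V) * A.rH 1⁻¹ = z
    simp)
  map_mul' h h' := RingEquiv.ext fun z => Subtype.ext (by
    show A.rH (h * h') * (z : Module.End k V) * A.rH (h * h')⁻¹ =
      A.rH h * (A.rH h' * z * A.rH h'⁻¹) * A.rH h⁻¹
    rw [mul_inv_rev, map_mul, map_mul]; simp only [mul_assoc])

theorem conjR_apply (h : H) (z : A.R) :
    ((A.conjR h z : A.R) : Module.End k V) = A.rH h * z * A.rH h⁻¹ := rfl

end FA

theorem mkQ_eq_zero_iff' {k : Type uk} [Field k] {V : Type uV} [AddCommGroup V] [Module k V]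
    (U : Submodule k V) (x : V) : U.mkQ x = 0 ↔ x ∈ U := by
  rw [Submodule.mkQ_apply, Submodule.Quotient.mk_eq_zero]

/-- **Commutative-image theorem.** If `F` acts on `V` through a commutative image, has order
invertible in `k` and no nonzero fixed vectors, then `V` is free for `H`. -/
theorem ait {k : Type uk} [Field k] {F : Type uF} [Group F] [Finite F] :
    ∀ (n : ℕ) (H : Type uH) [Group H] [Finite H] (V : Type uV) [AddCommGroup V] [Module k V]
      [FiniteDimensional k V] (A : FA k F H V), Module.finrank k V = n →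
      (∀ x y : F, Commute (A.rF x) (A.rF y)) → (Nat.card F : k) ≠ 0 →
      (∀ v, (∀ x, A.rF x v = v) → v = 0) → Free A.rH := by
  intro n
  induction n using Nat.strong_induction_on with
  | _ n ih =>
  intro H _ _ V _ _ _ A hn hcomm hcard hinv
  classical
  cases nonempty_fintype H
  cases nonempty_fintype F
  have hcard' : (Fintype.card F : k) ≠ 0 := by rwa [← Nat.card_eq_fintype_card]
  by_cases hV : Subsingleton V
  · exact free_of_subsingleton _
  rw [not_subsingleton_iff_nontrivial] at hV
  by_cases hirr : ∃ U : Submodule k V, U ≠ ⊥ ∧ U ≠ ⊤ ∧ (∀ x, U ≤ U.comap (A.rF x)) ∧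
      (∀ h, U ≤ U.comap (A.rH h))
  · obtain ⟨U, hU0, hU1, hUF, hUH⟩ := hirr
    have hlt1 : Module.finrank k U < n := by
      rw [← hn]; exact Submodule.finrank_lt hU1
    have hlt2 : Module.finrank k (V ⧸ U) < n := by
      have h1 := Submodule.finrank_quotient_add_finrank U
      have h2 : Module.finrank k U ≠ 0 := fun h => hU0 (Submodule.finrank_eq_zero.mp h)
      omega
    apply free_of_sub_quot A.rH U hUH
    · refine ih _ hlt1 H U (A.sub U hUF hUH) rfl (fun x y => ?_) hcard (fun v hv => ?_)
      · apply LinearMap.ext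
        intro v
        apply Subtype.ext
        exact congrArg (fun f : Module.End k V => f v) (hcomm x y).eq
      · apply Subtype.ext
        apply hinv
        intro x
        exact congrArg Subtype.val (hv x)
    · refine ih _ hlt2 H (V ⧸ U) (A.quot U hUF hUH) rfl (fun x y => ?_) hcard (fun v hv => ?_)
      · apply LinearMap.ext
        intro v
        obtain ⟨v, rfl⟩ := U.mkQ_surjective v
        exact congrArg U.mkQ (congrArg (fun f : Module.End k V => f v) (hcomm x y).eq)
      · obtain ⟨v, rfl⟩ := U.mkQ_surjective v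
        rw [mkQ_eq_zero_iff']
        refine mem_of_fixed_mod A.rF hcard' hinv U v (fun q => ?_)
        rw [← mkQ_eq_zero_iff', map_sub, sub_eq_zero]
        exact hv q
  · have hirr' : ∀ U : Submodule k V, (∀ x, U ≤ U.comap (A.rF x)) →
        (∀ h, U ≤ U.comap (A.rH h)) → U = ⊥ ∨ U = ⊤ := by
      intro U h1 h2
      by_contra hc
      exact hirr ⟨U, fun h => hc (Or.inl h), fun h => hc (Or.inr h), h1, h2⟩
    have hne : ∃ S : Submodule k V, S ∈ {S : Submodule k V | S ≠ ⊥ ∧ ∀ b, S ≤ S.comap (A.rF b)} :=
      ⟨⊤, top_ne_bot, fun b => le_top⟩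
    obtain ⟨S, hSmem, hSmin0⟩ := WellFounded.has_min
      (measure (fun S : Submodule k V => Module.finrank k S)).wf _ hne
    have hS0 : S ≠ ⊥ := hSmem.1
    have hSinv : ∀ b, S ≤ S.comap (A.rF b) := hSmem.2
    have hSmin : ∀ S' : Submodule k V, S' ≠ ⊥ → (∀ b, S' ≤ S'.comap (A.rF b)) → S' ≤ S →
        S' = S := by
      intro S' h1 h2 h3
      have := hSmin0 S' ⟨h1, h2⟩
      exact Submodule.eq_of_le_of_finrank_le h3 (not_lt.mp this)
    have hUF : ∀ b, A.cl S ≤ (A.cl S).comap (A.rF b) := A.cl_rF_invariant hcomm S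
    have hUne : A.cl S ≠ ⊥ := fun h => hS0 (le_bot_iff.mp (h ▸ A.le_cl S))
    have hN : ⨆ h : H, (A.cl S).map (A.rH h) = ⊤ := by
      have hle : A.cl S ≤ ⨆ h : H, (A.cl S).map (A.rH h) := by
        refine le_trans ?_ (le_iSup _ (1 : H))
        intro u hu
        exact ⟨u, hu, by simp⟩
      have hFi : ∀ b, (⨆ h : H, (A.cl S).map (A.rH h)) ≤
          (⨆ h : H, (A.cl S).map (A.rH h)).comap (A.rF b) := by
        intro b v hv
        rw [Submodule.mem_comap]
        obtain ⟨u, hu, rfl⟩ := (mem_iSup_map_iff A.rH (A.cl S) v).mp hv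
        rw [map_sum]
        refine Submodule.sum_mem _ fun h _ => ?_
        rw [A.compat']
        exact Submodule.mem_iSup_of_mem h (Submodule.mem_map_of_mem (hUF _ (hu h)))
      have hHi : ∀ g, (⨆ h : H, (A.cl S).map (A.rH h)) ≤
          (⨆ h : H, (A.cl S).map (A.rH h)).comap (A.rH g) := by
        intro g v hv
        rw [Submodule.mem_comap]
        obtain ⟨u, hu, rfl⟩ := (mem_iSup_map_iff A.rH (A.cl S) v).mp hv
        rw [map_sum]
        refine Submodule.sum_mem _ fun h _ => ?_
        have : A.rH g (A.rH h (u h)) = A.rH (g * h) (u h) := by rw [map_mul]; rfl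
        rw [this]
        exact Submodule.mem_iSup_of_mem (g * h) (Submodule.mem_map_of_mem (hu h))
      rcases hirr' (⨆ h : H, (A.cl S).map (A.rH h)) hFi hHi with h | h
      · exact absurd (le_bot_iff.mp (h ▸ hle)) hUne
      · exact h
    by_cases hstab : ∀ h, (A.cl S).map (A.rH h) = A.cl S
    · -- field case
      have hUH : ∀ h, A.cl S ≤ (A.cl S).comap (A.rH h) := fun h u hu => by
        rw [Submodule.mem_comap]
        have := Submodule.mem_map_of_mem (f := A.rH h) hu
        rwa [hstab h] at this
      have hUtop : A.cl S = ⊤ := (hirr' _ hUF hUH).resolve_left hUne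
      have hall : ∀ v : V, v ∈ A.cl S := fun v => by rw [hUtop]; trivial
      have hleft : ∀ x ∈ A.R, x ≠ 0 → ∃ y ∈ A.R, y * x = 1 := by
        intro x hx hx0
        have hxS : ¬ ∀ s ∈ S, x s = 0 := by
          intro hkill
          apply hx0
          ext v
          simpa using hall v x hx hkill
        obtain ⟨y, hy, hyinv⟩ := A.exists_inv_on_cl hcomm hSinv hSmin hx hxS
        refine ⟨y, hy, ?_⟩
        ext v
        simpa using hyinv v (hall v)
      haveI : Nontrivial A.R := ⟨⟨0, 1, fun h => by
        have h1 := congrArg (fun z : A.R => (z : Module.End k V)) h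
        obtain ⟨v, hv⟩ := exists_ne (0 : V)
        have h2 := congrArg (fun f : Module.End k V => f v) h1
        exact hv (by simpa using h2.symm)⟩⟩
      have hRcomm : ∀ x y : A.R, x * y = y * x :=
        fun x y => Subtype.ext (A.R_comm hcomm x.2 y.2).eq
      have hRinv : ∀ x : A.R, x ≠ 0 → ∃ y, x * y = 1 := by
        intro x hx0
        obtain ⟨y, hy, hyx⟩ := hleft x x.2 (fun h => hx0 (Subtype.ext h))
        exact ⟨⟨y, hy⟩, by rw [hRcomm]; exact Subtype.ext hyx⟩
      have hτ : Function.Injective A.conjR := by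
        rw [injective_iff_map_eq_one]
        intro h hh
        by_contra hne
        have h1 : ∀ b, A.rF (A.act h b) = A.rF b := by
          intro b
          have e1 : A.rH h * A.rF b * A.rH h⁻¹ = A.rF b := by
            have := congrArg (fun e : RingAut A.R =>
              ((e ⟨A.rF b, A.rF_mem_R b⟩ : A.R) : Module.End k V)) hh
            exact this
          rw [← e1]
          ext v
          simp only [Module.End.mul_apply]
          rw [A.compat, rep_apply_inv]
        have h2 : ∀ c : F, A.rF c = 1 := by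
          intro c
          obtain ⟨b, rfl⟩ := (A.bij h hne).2 c
          show A.rF (b * A.act h b⁻¹) = 1
          rw [map_mul, h1, ← map_mul, mul_inv_cancel, map_one]
        obtain ⟨v, hv⟩ := exists_ne (0 : V)
        exact hv (hinv v (fun x => by rw [h2]; rfl))
      obtain ⟨θ, hθ1, hθ2⟩ := descent hRcomm hRinv A.conjR hτ (A.R.val.toRingHom)
        (fun h => A.rH h) (fun h x v => by
          show A.rH h ((x : Module.End k V) v) = (A.rH h * x * A.rH h⁻¹) (A.rH h v)
          simp only [Module.End.mul_apply]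
          rw [rep_inv_apply]) (fun v => by
          have hv := trace_identity A hinv v
          have hv' : v = ∑ b : F, ((Fintype.card F : k)⁻¹ • A.rF b)
              (∑ h : H, A.rH h (A.rF b⁻¹ v)) := by
            simp only [LinearMap.smul_apply]
            rw [← Finset.smul_sum, hv, smul_smul, inv_mul_cancel₀ hcard', one_smul]
          rw [hv']
          refine AddSubgroup.sum_mem _ fun b _ => ?_
          apply AddSubgroup.subset_closure
          exact ⟨⟨(Fintype.card F : k)⁻¹ • A.rF b, A.R.smul_mem (A.rF_mem_R b) _⟩,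
            ∑ h : H, A.rH h (A.rF b⁻¹ v), fun h => sum_rep_fixed A.rH _ h, rfl⟩)
      have hι : ∀ (h : H) (w : V), (A.R.val.toRingHom (A.conjR h θ)) w =
          A.rH h ((θ : Module.End k V) (A.rH h⁻¹ w)) := fun h w => rfl
      rw [free_iff_elem]
      refine ⟨(A.rH.invariants).map (θ : Module.End k V), ?_, ?_⟩
      · intro v
        obtain ⟨w, hw, hv⟩ := hθ1 v
        refine ⟨fun h => (θ : Module.End k V) (w h), fun h => Submodule.mem_map_of_mem
          (fun g => hw h g), ?_⟩
        rw [hv]
        apply Finset.sum_congr rfl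
        intro h _
        rw [hι, hw h h⁻¹]
      · intro w hw hsum
        choose w₀ hw₀ hw₀' using fun h => Submodule.mem_map.mp (hw h)
        have hfix : ∀ h g, A.rH g (w₀ h) = w₀ h := fun h g => hw₀ h g
        have h5 := hθ2 w₀ hfix (by
          rw [← hsum]
          apply Finset.sum_congr rfl
          intro h _
          rw [hι, hfix h h⁻¹, hw₀' h])
        intro h
        rw [← hw₀' h, h5 h, map_zero]
    · -- recursion on a proper stabiliser
      let H₁ : Subgroup H :=
        { carrier := {h | (A.cl S).map (A.rH h) = A.cl S}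
          mul_mem' := by
            intro a b ha hb
            show (A.cl S).map (A.rH (a * b)) = A.cl S
            rw [← A.map_rH_mul, hb, ha]
          one_mem' := by
            show (A.cl S).map (A.rH 1) = A.cl S
            rw [map_one]; exact Submodule.map_id _
          inv_mem' := by
            intro a ha
            show (A.cl S).map (A.rH a⁻¹) = A.cl S
            have := congrArg (fun W : Submodule k V => W.map (A.rH a⁻¹)) ha
            simp only [A.map_rH_mul] at this
            rw [← this, inv_mul_cancel, map_one]; exact Submodule.map_id _ }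
      have hH₁ : ∀ h : H, h ∈ H₁ ↔ (A.cl S).map (A.rH h) = A.cl S := fun h => Iff.rfl
      have hUH₁ : ∀ h : H₁, A.cl S ≤ (A.cl S).comap ((A.resH H₁).rH h) := by
        intro h u hu
        rw [Submodule.mem_comap]
        have := Submodule.mem_map_of_mem (f := A.rH (h : H)) hu
        rw [(hH₁ h).mp h.2] at this
        exact this
      have hUtop : A.cl S ≠ ⊤ := by
        intro hU
        apply hstab
        intro h
        rw [hU, Submodule.map_top, LinearMap.range_eq_top]
        intro v
        exact ⟨A.rH h⁻¹ v, rep_apply_inv _ _ _⟩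
      have hlt : Module.finrank k (A.cl S) < n := by
        rw [← hn]; exact Submodule.finrank_lt hUtop
      have hfree := ih _ hlt H₁ (A.cl S) ((A.resH H₁).sub (A.cl S) hUF hUH₁) rfl
        (fun x y => by
          apply LinearMap.ext
          intro v
          apply Subtype.ext
          exact congrArg (fun f : Module.End k V => f v) (hcomm x y).eq) hcard
        (fun v hv => by
          apply Subtype.ext
          apply hinv
          intro x
          exact congrArg Subtype.val (hv x))
      rw [free_iff_elem] at hfree ⊢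
      obtain ⟨W₁, hs1, hi1⟩ := hfree
      refine ⟨W₁.map (A.cl S).subtype, ?_, ?_⟩
      · intro v
        obtain ⟨u, hu, rfl⟩ := (mem_iSup_map_iff A.rH (A.cl S) v).mp (hN ▸ Submodule.mem_top)
        choose w hw hwu using fun h => hs1 ⟨u h, hu h⟩
        have hu' : ∀ h, u h = ∑ h₁ : H₁, A.rH (h₁ : H) ((w h h₁ : A.cl S) : V) := by
          intro h
          have := congrArg Subtype.val (hwu h)
          simp only [Submodule.coe_sum] at this
          exact this
        refine ⟨fun g => ∑ h₁ : H₁, ((w (g * (h₁ : H)⁻¹) h₁ : A.cl S) : V), fun g => ?_, ?_⟩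
        · exact Submodule.sum_mem _ fun h₁ _ => Submodule.mem_map_of_mem (hw _ h₁)
        · calc ∑ h, A.rH h (u h)
              = ∑ h, ∑ h₁ : H₁, A.rH (h * h₁) ((w h h₁ : A.cl S) : V) := by
                apply Finset.sum_congr rfl
                intro h _
                rw [hu' h, map_sum]
                apply Finset.sum_congr rfl
                intro h₁ _
                rw [map_mul]; rfl
            _ = ∑ h₁ : H₁, ∑ h, A.rH (h * h₁) ((w h h₁ : A.cl S) : V) := Finset.sum_comm
            _ = ∑ h₁ : H₁, ∑ g, A.rH g ((w (g * (h₁ : H)⁻¹) h₁ : A.cl S) : V) := by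
                apply Finset.sum_congr rfl
                intro h₁ _
                exact Fintype.sum_equiv (Equiv.mulRight (h₁ : H)) _ _ (fun h => by simp)
            _ = ∑ g, ∑ h₁ : H₁, A.rH g ((w (g * (h₁ : H)⁻¹) h₁ : A.cl S) : V) := Finset.sum_comm
            _ = ∑ g, A.rH g (∑ h₁ : H₁, ((w (g * (h₁ : H)⁻¹) h₁ : A.cl S) : V)) := by
                apply Finset.sum_congr rfl
                intro g _
                rw [map_sum]
      · intro w hw hsum g₀
        obtain ⟨Z, hZ, hZ1, hZ2⟩ := A.sepAll hcomm hSinv hSmin g₀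
        have hwU : ∀ g, w g ∈ A.cl S := fun g => by
          obtain ⟨a, _, ha⟩ := Submodule.mem_map.mp (hw g)
          rw [← ha]; exact a.2
        have hstab_iff : ∀ g, (A.cl S).map (A.rH g) = (A.cl S).map (A.rH g₀) ↔ g₀⁻¹ * g ∈ H₁ := by
          intro g
          constructor
          · intro h
            show (A.cl S).map (A.rH (g₀⁻¹ * g)) = A.cl S
            rw [← A.map_rH_mul, h, A.map_rH_mul, inv_mul_cancel, map_one]
            exact Submodule.map_id _
          · intro h
            have h' : (A.cl S).map (A.rH (g₀⁻¹ * g)) = A.cl S := h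
            have := congrArg (fun W : Submodule k V => W.map (A.rH g₀)) h'
            simp only [A.map_rH_mul] at this
            rw [← this, mul_inv_cancel_left]
        have h1 : ∑ g, (if g₀⁻¹ * g ∈ H₁ then A.rH g (w g) else 0) = 0 := by
          have := congrArg Z hsum
          rw [map_sum, map_zero] at this
          refine Eq.trans ?_ this
          apply Finset.sum_congr rfl
          intro g _
          by_cases hg : g₀⁻¹ * g ∈ H₁
          · rw [if_pos hg]
            have hmem : A.rH g (w g) ∈ (A.cl S).map (A.rH g₀) := by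
              rw [← (hstab_iff g).mpr hg]; exact Submodule.mem_map_of_mem (hwU g)
            obtain ⟨u', hu', hu'eq⟩ := Submodule.mem_map.mp hmem
            rw [← hu'eq, hZ1 u' hu']
          · rw [if_neg hg]
            exact (hZ2 g (fun h => hg ((hstab_iff g).mp h)) (w g) (hwU g)).symm
        have h2 : ∑ g', (if g' ∈ H₁ then A.rH g' (w (g₀ * g')) else 0) = 0 := by
          apply rep_injective A.rH g₀
          rw [map_sum, map_zero]
          refine Eq.trans ?_ h1
          refine Fintype.sum_equiv (Equiv.mulLeft g₀) _ _ (fun g' => ?_)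
          simp only [Equiv.coe_mulLeft, inv_mul_cancel_left]
          by_cases hg : g' ∈ H₁
          · rw [if_pos hg, if_pos hg, map_mul]; rfl
          · rw [if_neg hg, if_neg hg, map_zero]
        have h3 : ∑ h₁ : H₁, A.rH (h₁ : H) (w (g₀ * h₁)) = 0 := by
          refine Eq.trans ?_ h2
          rw [← Finset.sum_filter]
          exact (Finset.sum_subtype (Finset.univ.filter (· ∈ H₁)) (p := (· ∈ H₁))
            (fun x => by simp) (fun g' => A.rH g' (w (g₀ * g')))).symm
        choose a ha ha' using fun g => Submodule.mem_map.mp (hw g)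
        have h4 := hi1 (fun h₁ => a (g₀ * h₁)) (fun h₁ => ha _) (by
          apply Subtype.ext
          simp only [Submodule.coe_sum, ZeroMemClass.coe_zero]
          rw [← h3]
          apply Finset.sum_congr rfl
          intro h₁ _
          show A.rH (h₁ : H) ((a (g₀ * h₁) : A.cl S) : V) = _
          rw [← ha' (g₀ * h₁)]; rfl)
        have h5 := h4 1
        simp only [OneMemClass.coe_one, mul_one] at h5
        rw [← ha' g₀, h5, map_zero]

end Cfsg.Agent.H37.FF
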