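import Cfsg.Agent.H37.FFBasic

set_option autoImplicit false

/-!
# Frobenius-type action data `FA` and its restrictions; trace identity; fixed points of `p`-groups
-/

namespace Cfsg.Agent.H37.FF

universe uk uF uH uV

/-- Frobenius-type action data: `H` acts on `F` by fixed-point-free automorphisms, and both act
linearly and compatibly on `V`. -/
structure FA (k : Type uk) (F : Type uF) (H : Type uH) (V : Type uV) [Field k] [Group F] [Group H]
    [AddCommGroup V] [Module k V] where
  act : H → F → F
  act_mul : ∀ h x y, act h (x * y) = act h x * act h y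
  act_one : ∀ x, act 1 x = x
  act_comp : ∀ h h' x, act (h * h') x = act h (act h' x)
  fpf : ∀ h x, h ≠ 1 → act h x = x → x = 1
  rF : Representation k F V
  rH : Representation k H V
  compat : ∀ h x v, rH h (rF x v) = rF (act h x) (rH h v)

namespace FA

variable {k : Type uk} {F : Type uF} {H : Type uH} {V : Type uV} [Field k] [Group F] [Group H]
  [AddCommGroup V] [Module k V] (A : FA k F H V)

theorem act_id (h : H) : A.act h 1 = 1 := by
  have := A.act_mul h 1 1
  rw [mul_one] at this
  exact (left_eq_mul.mp this)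

theorem act_inv (h : H) (x : F) : A.act h x⁻¹ = (A.act h x)⁻¹ := by
  apply eq_inv_of_mul_eq_one_left
  rw [← A.act_mul, inv_mul_cancel, A.act_id]

theorem act_inv_act (h : H) (x : F) : A.act h⁻¹ (A.act h x) = x := by
  rw [← A.act_comp, inv_mul_cancel, A.act_one]

theorem act_act_inv (h : H) (x : F) : A.act h (A.act h⁻¹ x) = x := by
  rw [← A.act_comp, mul_inv_cancel, A.act_one]

theorem compat' (h : H) (x : F) (v : V) : A.rF x (A.rH h v) = A.rH h (A.rF (A.act h⁻¹ x) v) := by
  rw [A.compat, A.act_act_inv]

theorem bij [Finite F] (h : H) (hh : h ≠ 1) : Function.Bijective (fun b : F => b * A.act h b⁻¹) := by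
  apply Function.Injective.bijective_of_finite
  intro b c hbc
  have hbc' : b * A.act h b⁻¹ = c * A.act h c⁻¹ := hbc
  have e1 : c⁻¹ * b = A.act h c⁻¹ * (A.act h b⁻¹)⁻¹ := by
    rw [eq_mul_inv_iff_mul_eq, mul_assoc, hbc', ← mul_assoc, inv_mul_cancel, one_mul]
  have h1 : A.act h (c⁻¹ * b) = c⁻¹ * b := by
    rw [A.act_mul, e1, A.act_inv h b, inv_inv]
  have := A.fpf h _ hh h1
  exact (inv_mul_eq_one.mp this).symm

/-- Restriction to a subgroup of `H`. -/
def resH (H₁ : Subgroup H) : FA k F H₁ V where
  act h x := A.act h x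
  act_mul h x y := A.act_mul h x y
  act_one x := A.act_one x
  act_comp h h' x := A.act_comp h h' x
  fpf h x hh hx := A.fpf h x (fun h1 => hh (Subtype.ext h1)) hx
  rF := A.rF
  rH := A.rH.comp H₁.subtype
  compat h x v := A.compat h x v

/-- Restriction to an `H`-invariant subgroup of `F`. -/
def resF (F₁ : Subgroup F) (hinv : ∀ h x, x ∈ F₁ → A.act h x ∈ F₁) : FA k F₁ H V where
  act h x := ⟨A.act h x, hinv h x x.2⟩
  act_mul h x y := Subtype.ext (A.act_mul h x y)
  act_one x := Subtype.ext (A.act_one x)
  act_comp h h' x := Subtype.ext (A.act_comp h h' x)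
  fpf h x hh hx := Subtype.ext (A.fpf h x hh (congrArg Subtype.val hx))
  rF := A.rF.comp F₁.subtype
  rH := A.rH
  compat h x v := A.compat h x v

/-- Restriction to an invariant subspace. -/
def sub (U : Submodule k V) (hF : ∀ x, U ≤ U.comap (A.rF x)) (hH : ∀ h, U ≤ U.comap (A.rH h)) :
    FA k F H U where
  act := A.act
  act_mul := A.act_mul
  act_one := A.act_one
  act_comp := A.act_comp
  fpf := A.fpf
  rF := A.rF.subrepresentation U hF
  rH := A.rH.subrepresentation U hH
  compat h x v := Subtype.ext (A.compat h x v)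

/-- The induced data on a quotient by an invariant subspace. -/
def quot (U : Submodule k V) (hF : ∀ x, U ≤ U.comap (A.rF x)) (hH : ∀ h, U ≤ U.comap (A.rH h)) :
    FA k F H (V ⧸ U) where
  act := A.act
  act_mul := A.act_mul
  act_one := A.act_one
  act_comp := A.act_comp
  fpf := A.fpf
  rF := A.rF.quotient U hF
  rH := A.rH.quotient U hH
  compat h x v := by
    obtain ⟨v, rfl⟩ := U.mkQ_surjective v
    exact congrArg U.mkQ (A.compat h x v)

end FA

section Lemmas

variable {k : Type uk} [Field k] {V : Type uV} [AddCommGroup V] [Module k V]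

theorem sum_rep_fixed {Q : Type*} [Group Q] [Fintype Q] (r : Representation k Q V) (v : V) (q' : Q) :
    r q' (∑ q, r q v) = ∑ q, r q v := by
  rw [map_sum]
  have : ∀ q, r q' (r q v) = r (q' * q) v := fun q => by rw [map_mul]; rfl
  simp only [this]
  exact Fintype.sum_bijective (fun q => q' * q) (Group.mulLeft_bijective q') _ _ fun _ => rfl

/-- The trace identity: `Σ_b b · tr(b⁻¹ v) = |F| v` when `F` has no nonzero fixed vectors. -/
theorem trace_identity {F : Type uF} {H : Type uH} [Group F] [Group H] [Fintype F] [Fintype H]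
    (A : FA k F H V) (hinv : ∀ v, (∀ x, A.rF x v = v) → v = 0) (v : V) :
    ∑ b : F, A.rF b (∑ h : H, A.rH h (A.rF b⁻¹ v)) = (Fintype.card F : k) • v := by
  simp only [map_sum]
  rw [Finset.sum_comm, Finset.sum_eq_single (1 : H)]
  · simp [Nat.cast_smul_eq_nsmul]
  · intro h _ hh
    have h1 : ∀ b, A.rF b (A.rH h (A.rF b⁻¹ v)) = A.rF (b * A.act h b⁻¹) (A.rH h v) := by
      intro b; rw [A.compat, map_mul]; rfl
    simp only [h1]
    rw [Fintype.sum_bijective _ (A.bij h hh) _ (fun c => A.rF c (A.rH h v)) (fun _ => rfl)]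
    exact hinv _ (sum_rep_fixed A.rF _)
  · intro h; exact absurd (Finset.mem_univ _) h

/-- A finite `p`-group acting linearly on a nonzero space in characteristic `p` fixes a nonzero
vector. -/
theorem exists_fixed_of_pgroup {p : ℕ} [Fact p.Prime] [CharP k p] {P : Type*} [Group P] [Finite P]
    (hP : IsPGroup p P) (r : Representation k P V) (v₀ : V) (hv₀ : v₀ ≠ 0) :
    ∃ v, v ≠ 0 ∧ ∀ g, r g v = v := by
  classical
  let S : Set V := Set.range fun g : P => r g v₀
  let M : AddSubgroup V := AddSubgroup.closure S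
  have hpV : ∀ x : V, p • x = 0 := by
    intro x
    rw [← Nat.cast_smul_eq_nsmul k, CharP.cast_eq_zero, zero_smul]
  have hstab : ∀ g : P, ∀ x ∈ M, r g x ∈ M := by
    intro g x hx
    induction hx using AddSubgroup.closure_induction with
    | mem y hy =>
      obtain ⟨g', rfl⟩ := hy
      apply AddSubgroup.subset_closure
      exact ⟨g * g', by simp [map_mul]⟩
    | zero => simp
    | add y z _ _ hy hz => rw [map_add]; exact M.add_mem hy hz
    | neg y _ hy => rw [map_neg]; exact M.neg_mem hy
  have hfg : AddGroup.FG M := by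
    rw [AddGroup.fg_iff_addSubgroup_fg, AddSubgroup.fg_iff]
    exact ⟨S, rfl, Set.finite_range _⟩
  have htors : IsAddTorsion M := by
    intro x
    rw [isOfFinAddOrder_iff_nsmul_eq_zero]
    exact ⟨p, (Fact.out : p.Prime).pos, Subtype.ext (by simpa using hpV x)⟩
  have : Finite M := AddCommGroup.finite_of_fg_isAddTorsion M htors
  have hv₀M : v₀ ∈ M := AddSubgroup.subset_closure ⟨1, by simp⟩
  have hdvd : p ∣ Nat.card M := by
    have h1 : addOrderOf (⟨v₀, hv₀M⟩ : M) = p := by
      apply addOrderOf_eq_prime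
      · exact Subtype.ext (by simpa using hpV v₀)
      · intro h; exact hv₀ (congrArg Subtype.val h)
    rw [← h1]
    exact addOrderOf_dvd_natCard _
  letI : MulAction P M :=
    { smul := fun g m => ⟨r g m, hstab g m m.2⟩
      one_smul := fun m => Subtype.ext (by show r 1 (m : V) = m; simp)
      mul_smul := fun g g' m => Subtype.ext (by show r (g * g') (m : V) = r g (r g' m); simp) }
  have h0 : (0 : M) ∈ MulAction.fixedPoints P M := by
    intro g
    exact Subtype.ext (by show r g (0 : V) = 0; simp)
  obtain ⟨b, hb, hb0⟩ := hP.exists_fixed_point_of_prime_dvd_card_of_fixed_point M hdvd h0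
  refine ⟨(b : V), fun h => hb0 (Subtype.ext h.symm), fun g => ?_⟩
  exact congrArg Subtype.val (hb g)

end Lemmas

end Cfsg.Agent.H37.FF
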