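import Mathlib

set_option autoImplicit false

/-!
# Frobenius-type actions on vector spaces: basic framework

`FA k F H V` packages a group `H` acting on a group `F` by fixed-point-free automorphisms
together with compatible linear representations of `F` and `H` on `V`.
`Free r` says that the representation `r` of `H` is free: `V = ⊕_h r(h) W` for some subspace `W`.
-/

namespace Cfsg.Agent.H37.FF

universe uk uF uH uV

/-- `Free r`: some subspace `W` has `V = ⊕_h r(h) W`. -/
def Free {k : Type uk} [Field k] {H : Type uH} [Group H] {V : Type uV} [AddCommGroup V] [Module k V]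
    (r : Representation k H V) : Prop :=
  ∃ W : Submodule k V, iSupIndep (fun h : H => W.map (r h)) ∧ ⨆ h : H, W.map (r h) = ⊤

section Elem

variable {k : Type uk} [Field k] {H : Type uH} [Group H] {V : Type uV} [AddCommGroup V] [Module k V]

theorem rep_inv_apply (r : Representation k H V) (h : H) (v : V) : r h⁻¹ (r h v) = v := by
  rw [← Module.End.mul_apply, ← map_mul]; simp

theorem rep_apply_inv (r : Representation k H V) (h : H) (v : V) : r h (r h⁻¹ v) = v := by
  rw [← Module.End.mul_apply, ← map_mul]; simp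

theorem rep_injective (r : Representation k H V) (h : H) : Function.Injective (r h) := by
  intro a b hab
  have := congrArg (r h⁻¹) hab
  simpa [rep_inv_apply] using this

theorem mem_iSup_map_iff [Fintype H] (r : Representation k H V) (U : Submodule k V) (v : V) :
    v ∈ ⨆ h : H, U.map (r h) ↔ ∃ u : H → V, (∀ h, u h ∈ U) ∧ v = ∑ h, r h (u h) := by
  classical
  constructor
  · intro hv
    refine Submodule.iSup_induction (p := fun h : H => U.map (r h))
      (motive := fun v => ∃ u : H → V, (∀ h, u h ∈ U) ∧ v = ∑ h, r h (u h)) hv ?_ ?_ ?_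
    · rintro h x ⟨u, hu, rfl⟩
      refine ⟨fun h' => if h' = h then u else 0, ?_, ?_⟩
      · intro h'
        by_cases hh : h' = h
        · simp only [hh, if_true]; exact hu
        · simp only [hh, if_false]; exact U.zero_mem
      · rw [Finset.sum_eq_single h]
        · simp
        · intro b _ hb; simp [hb]
        · intro hb; exact absurd (Finset.mem_univ h) hb
    · exact ⟨fun _ => 0, fun _ => U.zero_mem, by simp⟩
    · rintro x y ⟨u, hu, rfl⟩ ⟨u', hu', rfl⟩
      exact ⟨fun h => u h + u' h, fun h => U.add_mem (hu h) (hu' h),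
        by simp [Finset.sum_add_distrib]⟩
  · rintro ⟨u, hu, rfl⟩
    exact Submodule.sum_mem _ fun h _ =>
      Submodule.mem_iSup_of_mem h (Submodule.mem_map_of_mem (hu h))

theorem free_iff_elem [Fintype H] (r : Representation k H V) :
    Free r ↔ ∃ W : Submodule k V, (∀ v, ∃ w : H → V, (∀ h, w h ∈ W) ∧ v = ∑ h, r h (w h)) ∧
      (∀ w : H → V, (∀ h, w h ∈ W) → ∑ h, r h (w h) = 0 → ∀ h, w h = 0) := by
  classical
  constructor
  · rintro ⟨W, hind, hsup⟩
    refine ⟨W, ?_, ?_⟩
    · intro v
      exact (mem_iSup_map_iff r W v).mp (hsup ▸ Submodule.mem_top)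
    · intro w hw hsum h
      have h1 := (iSupIndep_iff_finsetSum_eq_zero_imp_eq_zero _).mp hind Finset.univ
        (fun h => r h (w h)) (fun i _ => Submodule.mem_map_of_mem (hw i)) hsum h (Finset.mem_univ h)
      exact rep_injective r h (by simpa using h1)
  · rintro ⟨W, hspan, hind⟩
    refine ⟨W, ?_, ?_⟩
    · rw [iSupIndep_iff_finsetSum_eq_zero_imp_eq_zero]
      intro s v hv hsum i hi
      have hex : ∀ j, ∃ w, j ∈ s → (w ∈ W ∧ r j w = v j) := by
        intro j
        by_cases hj : j ∈ s
        · obtain ⟨w, hw, hw'⟩ := Submodule.mem_map.mp (hv j hj)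
          exact ⟨w, fun _ => ⟨hw, hw'⟩⟩
        · exact ⟨0, fun h => absurd h hj⟩
      choose w hw using hex
      let w' : H → V := fun j => if j ∈ s then w j else 0
      have h1 : ∑ h, r h (w' h) = 0 := by
        rw [← hsum, ← Finset.sum_subset (Finset.subset_univ s)]
        · apply Finset.sum_congr rfl
          intro j hj
          simp [w', hj, (hw j hj).2]
        · intro j _ hj
          simp [w', hj]
      have h2 := hind w' (fun h => by
        simp only [w']
        by_cases hh : h ∈ s
        · simp only [hh, if_true]; exact (hw h hh).1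
        · simp only [hh, if_false]; exact W.zero_mem) h1 i
      have h3 : w i = 0 := by simpa [w', hi] using h2
      rw [← (hw i hi).2, h3, map_zero]
    · exact eq_top_iff.mpr fun v _ => (mem_iSup_map_iff r W v).mpr (hspan v)

theorem free_of_subsingleton [Subsingleton V] (r : Representation k H V) : Free r := by
  refine ⟨⊥, ?_, ?_⟩
  · have : (fun h : H => (⊥ : Submodule k V).map (r h)) = fun _ => ⊥ := by
      funext h; simp
    rw [this]
    exact iSupIndep_def.mpr fun i => by simp
  · exact Subsingleton.elim _ _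

/-- Extension lemma: if an `H`-invariant subspace and the quotient by it are free, so is `V`. -/
theorem free_of_sub_quot [Finite H] (r : Representation k H V) (U : Submodule k V)
    (hU : ∀ h, U ≤ U.comap (r h))
    (h1 : Free (r.subrepresentation U hU)) (h2 : Free (r.quotient U hU)) : Free r := by
  classical
  cases nonempty_fintype H
  rw [free_iff_elem] at h1 h2 ⊢
  obtain ⟨W₁, hs1, hi1⟩ := h1
  obtain ⟨W₂, hs2, hi2⟩ := h2
  obtain ⟨C, hC⟩ := Submodule.exists_isCompl U
  let W₂' : Submodule k V := W₂.comap U.mkQ ⊓ C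
  have hW₂'U : ∀ x, x ∈ W₂' → x ∈ U → x = 0 := by
    intro x hx hxU
    have : x ∈ U ⊓ C := ⟨hxU, hx.2⟩
    rw [hC.inf_eq_bot] at this
    simpa using this
  have hmk0 : ∀ x, U.mkQ x = 0 ↔ x ∈ U := fun x => by
    rw [Submodule.mkQ_apply, Submodule.Quotient.mk_eq_zero]
  have hlift : ∀ y, y ∈ W₂ → ∃ c, c ∈ W₂' ∧ U.mkQ c = y := by
    intro y hy
    obtain ⟨x, rfl⟩ := U.mkQ_surjective y
    have hx : x ∈ U ⊔ C := by rw [hC.sup_eq_top]; trivial
    obtain ⟨u, hu, c, hc, rfl⟩ := Submodule.mem_sup.mp hx
    have hmk : U.mkQ (u + c) = U.mkQ c := by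
      rw [map_add, (hmk0 u).mpr hu, zero_add]
    refine ⟨c, ⟨?_, hc⟩, hmk.symm⟩
    show U.mkQ c ∈ W₂
    rw [← hmk]; exact hy
  have hq : ∀ h x, (r.quotient U hU h) (U.mkQ x) = U.mkQ (r h x) := by
    intro h x; rfl
  refine ⟨W₁.map U.subtype ⊔ W₂', ?_, ?_⟩
  · intro v
    obtain ⟨wb, hwb, hv⟩ := hs2 (U.mkQ v)
    choose c hc using fun h => hlift (wb h) (hwb h)
    have hd : v - ∑ h, r h (c h) ∈ U := by
      rw [← hmk0]
      rw [map_sub, map_sum, hv, sub_eq_zero]
      apply Finset.sum_congr rfl
      intro h _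
      rw [← hq, (hc h).2]
    obtain ⟨w₁, hw₁, hd'⟩ := hs1 ⟨v - ∑ h, r h (c h), hd⟩
    refine ⟨fun h => (w₁ h : V) + c h, fun h => ?_, ?_⟩
    · exact Submodule.add_mem_sup (Submodule.mem_map_of_mem (hw₁ h)) (hc h).1
    · have hd'' := congrArg (Subtype.val) hd'
      simp only [Submodule.coe_sum] at hd''
      have h3 : ∀ h, ((r.subrepresentation U hU h) (w₁ h) : V) = r h (w₁ h : V) := fun h => rfl
      simp only [h3] at hd''
      simp only [map_add, Finset.sum_add_distrib]
      rw [← hd'']; abel
  · intro w hw hsum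
    have hdec : ∀ h, ∃ a : U, a ∈ W₁ ∧ ∃ b, b ∈ W₂' ∧ w h = (a : V) + b := by
      intro h
      obtain ⟨a, ha, b, hb, hab⟩ := Submodule.mem_sup.mp (hw h)
      obtain ⟨a', ha', rfl⟩ := Submodule.mem_map.mp ha
      exact ⟨a', ha', b, hb, hab.symm⟩
    choose a ha b hb hab using hdec
    have hb0 : ∀ h, b h = 0 := by
      have hsumq : ∑ h, (r.quotient U hU h) (U.mkQ (b h)) = 0 := by
        have := congrArg U.mkQ hsum
        rw [map_sum, map_zero] at this
        rw [← this]
        apply Finset.sum_congr rfl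
        intro h _
        rw [hq, hab h, map_add, map_add, (hmk0 _).mpr (hU h (a h).2), zero_add]
      have := hi2 (fun h => U.mkQ (b h)) (fun h => (hb h).1) hsumq
      intro h
      exact hW₂'U _ (hb h) ((hmk0 _).mp (this h))
    have ha0 : ∀ h, a h = 0 := by
      apply hi1 a ha
      apply Subtype.ext
      simp only [Submodule.coe_sum, ZeroMemClass.coe_zero]
      rw [← hsum]
      apply Finset.sum_congr rfl
      intro h _
      rw [hab h, hb0 h, add_zero]; rfl
    intro h
    rw [hab h, ha0 h, hb0 h]; simp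

/-- Averaging: if a finite group `Q` of invertible order has no nonzero fixed vectors on `V`, then
a vector fixed modulo an (arbitrary) subspace `U` lies in `U`. -/
theorem mem_of_fixed_mod {Q : Type*} [Group Q] [Fintype Q] (r : Representation k Q V)
    (hcard : (Fintype.card Q : k) ≠ 0) (hinv : ∀ v, (∀ q, r q v = v) → v = 0)
    (U : Submodule k V) (v : V) (hv : ∀ q, r q v - v ∈ U) : v ∈ U := by
  have hs : ∑ q, r q v = 0 := by
    apply hinv
    intro q'
    rw [map_sum]
    have : ∀ q, r q' (r q v) = r (q' * q) v := fun q => by rw [map_mul]; rfl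
    simp only [this]
    exact Fintype.sum_bijective (fun q => q' * q) (Group.mulLeft_bijective q') _ _ fun _ => rfl
  have h1 : ∑ q, (r q v - v) ∈ U := Submodule.sum_mem _ fun q _ => hv q
  rw [Finset.sum_sub_distrib, hs, zero_sub, Finset.sum_const, Finset.card_univ, ← Nat.cast_smul_eq_nsmul k,
    Submodule.neg_mem_iff] at h1
  exact (Submodule.smul_mem_iff U hcard).mp h1

end Elem

end Cfsg.Agent.H37.FF
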