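import Cfsg.Agent.H37.FFAbel
import Cfsg.Agent.H38.PiCore

set_option autoImplicit false

/-!
# The free-module theorem for Frobenius-type actions with nilpotent kernel

`FF.main`: if `H` acts fixed-point-freely on a finite nilpotent group `F`, both act compatibly on
a finite-dimensional `k`-space `V` (any characteristic) and `F` has no nonzero fixed vector, then
`V` is a free `kH`-module.
-/

namespace Cfsg.Agent.H37.FF

universe uk uF uH uV

namespace FA

variable {k : Type uk} {F : Type uF} {H : Type uH} {V : Type uV} [Field k] [Group F] [Group H]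
  [AddCommGroup V] [Module k V] (A : FA k F H V)

theorem rF_act (h : H) (x : F) : A.rF (A.act h x) = A.rH h * A.rF x * A.rH h⁻¹ := by
  apply LinearMap.ext
  intro v
  show A.rF (A.act h x) v = A.rH h (A.rF x (A.rH h⁻¹ v))
  rw [A.compat, rep_apply_inv]

/-- The elements of `F` whose image commutes with the image of `F`. -/
def ZK : Subgroup F where
  carrier := {f | ∀ g, Commute (A.rF f) (A.rF g)}
  mul_mem' := by
    intro a b ha hb g
    show Commute (A.rF (a * b)) (A.rF g)
    rw [map_mul]; exact (ha g).mul_left (hb g)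
  one_mem' := by
    intro g
    show Commute (A.rF 1) (A.rF g)
    rw [map_one]; exact Commute.one_left _
  inv_mem' := by
    intro a ha g
    have h1 : A.rF a⁻¹ * A.rF a = 1 := by rw [← map_mul]; simp
    have h2 : A.rF a * A.rF a⁻¹ = 1 := by rw [← map_mul]; simp
    show A.rF a⁻¹ * A.rF g = A.rF g * A.rF a⁻¹
    calc A.rF a⁻¹ * A.rF g = A.rF a⁻¹ * (A.rF g * A.rF a) * A.rF a⁻¹ := by
          rw [mul_assoc, mul_assoc, h2, mul_one]
      _ = A.rF a⁻¹ * (A.rF a * A.rF g) * A.rF a⁻¹ := by rw [(ha g).eq]
      _ = A.rF g * A.rF a⁻¹ := by rw [← mul_assoc, h1, one_mul]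

theorem mem_ZK {f : F} : f ∈ A.ZK ↔ ∀ g, Commute (A.rF f) (A.rF g) := Iff.rfl

theorem ZK_act (h : H) (x : F) (hx : x ∈ A.ZK) : A.act h x ∈ A.ZK := by
  intro g
  show A.rF (A.act h x) * A.rF g = A.rF g * A.rF (A.act h x)
  have hg : A.rF g = A.rH h * A.rF (A.act h⁻¹ g) * A.rH h⁻¹ := by
    rw [← A.rF_act, A.act_act_inv]
  rw [hg, A.rF_act, ← A.conj_mul, ← A.conj_mul, (hx _).eq]

/-- The fixed space of `ZK`. -/
def CZ : Submodule k V where
  carrier := {v | ∀ z ∈ A.ZK, A.rF z v = v}
  add_mem' := by intro a b ha hb z hz; rw [map_add, ha z hz, hb z hz]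
  zero_mem' := by intro z _; simp
  smul_mem' := by intro c v hv z hz; rw [map_smul, hv z hz]

theorem CZ_rF (x : F) : A.CZ ≤ A.CZ.comap (A.rF x) := by
  intro v hv
  rw [Submodule.mem_comap]
  intro z hz
  have := congrArg (fun f : Module.End k V => f v) (hz x).eq
  simp only [Module.End.mul_apply] at this
  rw [this, hv z hz]

theorem CZ_rH (h : H) : A.CZ ≤ A.CZ.comap (A.rH h) := by
  intro v hv
  rw [Submodule.mem_comap]
  intro z hz
  rw [A.compat', hv _ (A.ZK_act h⁻¹ z hz)]

theorem trivial_of_CZ_top [hnil : Group.IsNilpotent F] (htop : A.CZ = ⊤) (x : F) : A.rF x = 1 := by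
  have key : ∀ n, ∀ x ∈ Subgroup.upperCentralSeries F n, A.rF x = 1 := by
    intro n
    induction n with
    | zero =>
      intro x hx
      rw [Subgroup.upperCentralSeries_zero, Subgroup.mem_bot] at hx
      rw [hx, map_one]
    | succ n ih =>
      intro x hx
      rw [Subgroup.mem_upperCentralSeries_succ_iff] at hx
      have hz : x ∈ A.ZK := by
        intro g
        have h1 : A.rF (x * g * x⁻¹ * g⁻¹) = 1 := ih _ (hx g)
        have h2 : A.rF (x * g) = A.rF (x * g * x⁻¹ * g⁻¹) * A.rF (g * x) := by
          rw [← map_mul]; congr 1; group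
        show A.rF x * A.rF g = A.rF g * A.rF x
        rw [← map_mul, ← map_mul, h2, h1, one_mul]
      apply LinearMap.ext
      intro v
      have hv : v ∈ A.CZ := by rw [htop]; trivial
      exact hv x hz
  obtain ⟨n, hn⟩ := hnil.nilpotent
  exact key n x (hn ▸ Subgroup.mem_top x)

end FA

/-- The free-module theorem when `|F|` is invertible in `k`. -/
theorem main_coprime {k : Type uk} [Field k] {F : Type uF} [Group F] [Finite F] {H : Type uH}
    [Group H] [Finite H] (hnil : Group.IsNilpotent F) (hcard : (Nat.card F : k) ≠ 0) :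
    ∀ (n : ℕ) (V : Type uV) [AddCommGroup V] [Module k V] [FiniteDimensional k V]
      (A : FA k F H V), Module.finrank k V = n →
      (∀ v, (∀ x, A.rF x v = v) → v = 0) → Free A.rH := by
  intro n
  induction n using Nat.strong_induction_on with
  | _ n ih =>
  intro V _ _ _ A hn hinv
  classical
  cases nonempty_fintype F
  have hcard' : (Fintype.card F : k) ≠ 0 := by rwa [← Nat.card_eq_fintype_card]
  by_cases hV : Subsingleton V
  · exact free_of_subsingleton _
  rw [not_subsingleton_iff_nontrivial] at hV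
  by_cases h0 : A.CZ = ⊥
  · have hZcard : (Nat.card A.ZK : k) ≠ 0 := by
      intro h
      apply hcard
      obtain ⟨m, hm⟩ := Subgroup.card_subgroup_dvd_card A.ZK
      rw [hm, Nat.cast_mul, h, zero_mul]
    refine ait n H V (A.resF A.ZK (fun h x hx => A.ZK_act h x hx)) hn (fun x y => ?_) hZcard
      (fun v hv => ?_)
    · exact x.2 y
    · have : v ∈ A.CZ := fun z hz => hv ⟨z, hz⟩
      rw [h0] at this
      exact (Submodule.mem_bot k).mp this
  by_cases h1 : A.CZ = ⊤
  · exfalso
    obtain ⟨v, hv⟩ := exists_ne (0 : V)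
    apply hv
    apply hinv
    intro x
    haveI := hnil
    rw [A.trivial_of_CZ_top h1 x]; rfl
  · have hlt1 : Module.finrank k A.CZ < n := by rw [← hn]; exact Submodule.finrank_lt h1
    have hlt2 : Module.finrank k (V ⧸ A.CZ) < n := by
      have h1 := Submodule.finrank_quotient_add_finrank A.CZ
      have h2 : Module.finrank k A.CZ ≠ 0 := fun h => h0 (Submodule.finrank_eq_zero.mp h)
      omega
    apply free_of_sub_quot A.rH A.CZ A.CZ_rH
    · refine ih _ hlt1 A.CZ (A.sub A.CZ A.CZ_rF A.CZ_rH) rfl (fun v hv => ?_)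
      apply Subtype.ext
      apply hinv
      intro x
      exact congrArg Subtype.val (hv x)
    · refine ih _ hlt2 (V ⧸ A.CZ) (A.quot A.CZ A.CZ_rF A.CZ_rH) rfl (fun v hv => ?_)
      obtain ⟨v, rfl⟩ := A.CZ.mkQ_surjective v
      rw [mkQ_eq_zero_iff']
      refine mem_of_fixed_mod A.rF hcard' hinv A.CZ v (fun q => ?_)
      rw [← mkQ_eq_zero_iff', map_sub, sub_eq_zero]
      exact hv q

/-- The subgroup of elements fixing a vector. -/
def fixer {k : Type uk} [Field k] {G : Type uF} [Group G] {V : Type uV} [AddCommGroup V]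
    [Module k V] (r : Representation k G V) (v : V) : Subgroup G where
  carrier := {x | r x v = v}
  mul_mem' := by
    intro a b ha hb
    show r (a * b) v = v
    rw [map_mul, Module.End.mul_apply, hb, ha]
  one_mem' := by show r 1 v = v; simp
  inv_mem' := by
    intro a ha
    show r a⁻¹ v = v
    have h : r a v = v := ha
    conv_lhs => rw [← h]
    exact rep_inv_apply r a v

open Cfsg.Agent.H38 in
/-- In a finite nilpotent group, a Sylow `p`-subgroup and the `p'`-core generate the group. -/
theorem sylow_sup_core {F : Type uF} [Group F] [Finite F] (hnil : Group.IsNilpotent F) (p : ℕ)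
    [hp : Fact p.Prime] (P : Sylow p F) :
    (P : Subgroup F) ⊔ Cfsg.piCore {q | q ≠ p} F = ⊤ := by
  rw [← Subgroup.index_eq_one]
  apply Nat.eq_one_iff_not_exists_prime_dvd.mpr
  intro q hq hdvd
  haveI : Fact q.Prime := ⟨hq⟩
  haveI := hnil
  by_cases hqp : q = p
  · subst hqp
    exact P.not_dvd_index (hdvd.trans (Subgroup.index_dvd_of_le le_sup_left))
  · obtain ⟨S⟩ : Nonempty (Sylow q F) := inferInstance
    have hSn : (S : Subgroup F).Normal :=
      Sylow.normal_of_normalizerCondition Group.normalizerCondition_of_isNilpotent S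
    have hSle : (S : Subgroup F) ≤ Cfsg.piCore {q | q ≠ p} F := by
      apply le_piCore _ hSn
      intro r hr hrd
      obtain ⟨n, hn⟩ := IsPGroup.exists_card_eq S.isPGroup'
      rw [hn] at hrd
      have : r = q := (Nat.prime_dvd_prime_iff_eq hr hq).mp (hr.dvd_of_dvd_pow hrd)
      show r ≠ p
      rw [this]; exact hqp
    exact S.not_dvd_index (hdvd.trans (Subgroup.index_dvd_of_le (hSle.trans le_sup_right)))

open Cfsg.Agent.H38 in
/-- **Free-module theorem** for Frobenius-type actions with nilpotent kernel, any characteristic. -/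
theorem main {k : Type uk} [Field k] {F : Type uF} [Group F] [Finite F] {H : Type uH}
    [Group H] [Finite H] {V : Type uV} [AddCommGroup V] [Module k V] [FiniteDimensional k V]
    (A : FA k F H V) (hnil : Group.IsNilpotent F)
    (hinv : ∀ v, (∀ x, A.rF x v = v) → v = 0) : Free A.rH := by
  classical
  by_cases hcard : (Nat.card F : k) = 0
  swap
  · exact main_coprime hnil hcard _ V A rfl hinv
  -- the modular case
  obtain ⟨p, hchar⟩ := CharP.exists k
  have hpdvd : p ∣ Nat.card F := (CharP.cast_eq_zero_iff k p _).mp hcard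
  have hp0 : p ≠ 0 := by
    rintro rfl
    exact Nat.card_pos.ne' (Nat.eq_zero_of_zero_dvd hpdvd)
  have hpp : p.Prime := (CharP.char_is_prime_or_zero k p).resolve_right hp0
  haveI : Fact p.Prime := ⟨hpp⟩
  set Q : Subgroup F := Cfsg.piCore {q | q ≠ p} F with hQ
  have hQcop : (Nat.card Q).Coprime p :=
    (piNat_compl_singleton_iff_coprime hpp).mp (piNat_card_piCore _)
  have hQact : ∀ h x, x ∈ Q → A.act h x ∈ Q := by
    intro h x hx
    let φ : F ≃* F :=
      { toFun := A.act h
        invFun := A.act h⁻¹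
        left_inv := A.act_inv_act h
        right_inv := A.act_act_inv h
        map_mul' := A.act_mul h }
    have := piCore_map_equiv {q | q ≠ p} φ
    rw [← hQ] at this
    rw [← this]
    exact Subgroup.mem_map_of_mem _ hx
  have hQcard : (Nat.card Q : k) ≠ 0 := by
    intro h
    have := (CharP.cast_eq_zero_iff k p _).mp h
    have h1 : p ∣ Nat.gcd (Nat.card Q) p := Nat.dvd_gcd this dvd_rfl
    rw [hQcop] at h1
    exact hpp.one_lt.ne' (Nat.dvd_one.mp h1)
  haveI hQnil : Group.IsNilpotent Q := by haveI := hnil; infer_instance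
  refine main_coprime hQnil hQcard _ V (A.resF Q hQact) rfl ?_
  -- the fixed space of `Q` is zero
  intro v₀ hv₀
  by_contra hne
  let V₀ : Submodule k V :=
    { carrier := {v | ∀ x ∈ Q, A.rF x v = v}
      add_mem' := by intro a b ha hb z hz; rw [map_add, ha z hz, hb z hz]
      zero_mem' := by intro z _; simp
      smul_mem' := by intro c v hv z hz; rw [map_smul, hv z hz] }
  have hV₀ : ∀ x, V₀ ≤ V₀.comap (A.rF x) := by
    intro x v hv
    rw [Submodule.mem_comap]
    intro z hz
    have hz' : x⁻¹ * z * x ∈ Q := by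
      have := (inferInstance : Q.Normal).conj_mem z hz x⁻¹
      simpa using this
    have h1 : A.rF z (A.rF x v) = A.rF x (A.rF (x⁻¹ * z * x) v) := by
      rw [← Module.End.mul_apply, ← Module.End.mul_apply, ← map_mul, ← map_mul]
      congr 2; group
    rw [h1, hv _ hz']
  have hv₀mem : v₀ ∈ V₀ := fun x hx => hv₀ ⟨x, hx⟩
  obtain ⟨P⟩ : Nonempty (Sylow p F) := inferInstance
  obtain ⟨v, hvne, hvfix⟩ := exists_fixed_of_pgroup (k := k) P.isPGroup'
    ((A.rF.subrepresentation V₀ hV₀).comp (P : Subgroup F).subtype) ⟨v₀, hv₀mem⟩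
    (fun h => hne (congrArg Subtype.val h))
  apply hvne
  apply Subtype.ext
  apply hinv
  have hle : (P : Subgroup F) ⊔ Q ≤ fixer A.rF (v : V) := by
    apply sup_le
    · intro x hx
      exact congrArg Subtype.val (hvfix ⟨x, hx⟩)
    · intro x hx
      exact v.2 x hx
  rw [sylow_sup_core hnil p P] at hle
  intro x
  exact hle (Subgroup.mem_top x)

end Cfsg.Agent.H37.FF
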