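import Mathlib
import Cfsg.Agent.H58.QStab
import Cfsg.Agent.H58.SolvStable

/-!
# Quadratic action on an arbitrary normal `p`-subgroup of a finite solvable group, `p ≥ 5`

Solvable analogue of helper58's `exists_normal_quad` (which is for groups with abelian
2-subgroups), obtained from `H58.quad_normal_group_solv` by the same Frattini induction.
-/

set_option autoImplicit false

namespace Cfsg.Agent.H37.SolvQuad

open scoped commutatorElement
open Cfsg Cfsg.Agent.H24 Cfsg.Agent.H24.Quad Cfsg.Agent.H58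

universe u

variable {G : Type u} [Group G] [Finite G] [Group.IsSolvable G] {p : ℕ} [Fact p.Prime]

/-- **Quadratic action on a normal `p`-subgroup** of a finite solvable group, `p ≥ 5`: an
element acting quadratically on a normal `p`-subgroup `P` lies in a normal subgroup all of whose
elements have a `p`-power in `C_G(P)`. -/
theorem exists_normal_quad_solv (hp2 : p ≠ 2) (hp3 : p ≠ 3) :
    ∀ (n : ℕ) (P : Subgroup G), P.Normal → IsPGroup p P → Nat.card P = n → ∀ a : G,
      ⁅⁅P, Subgroup.zpowers a⁆, Subgroup.zpowers a⁆ = ⊥ →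
      ∃ M : Subgroup G, M.Normal ∧ a ∈ M ∧
        ∀ g ∈ M, ∃ k : ℕ, g ^ p ^ k ∈ Subgroup.centralizer (P : Set G) := by
  intro n
  induction n using Nat.strong_induction_on with
  | _ n ih =>
  intro P hPn hPp hcard a hq
  by_cases hbot : P = ⊥
  · refine ⟨⊤, inferInstance, Subgroup.mem_top _, fun g _ => ⟨0, ?_⟩⟩
    subst hbot
    rw [Subgroup.mem_centralizer_iff]
    intro x hx
    have hx1 : x = 1 := by simpa using hx
    rw [hx1, one_mul, mul_one]
  · have := hPn
    set P1 := (frattini ↥P).map P.subtype with hP1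
    have hlt : P1 < P := frattini_map_lt P hbot
    have hP1n : P1.Normal := frattini_map_normal P
    have hP1p : IsPGroup p P1 := hPp.to_le hlt.le
    have hq1 : ⁅⁅P1, Subgroup.zpowers a⁆, Subgroup.zpowers a⁆ = ⊥ := by
      rw [eq_bot_iff, ← hq]
      exact Subgroup.commutator_mono (Subgroup.commutator_mono hlt.le le_rfl) le_rfl
    have hcardlt : Nat.card P1 < n := by
      rw [← hcard]
      exact Cfsg.Agent.H29.card_lt_of_lt hlt
    obtain ⟨M2, hM2n, haM2, hM2⟩ := ih (Nat.card P1) hcardlt P1 hP1n hP1p rfl a hq1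
    obtain ⟨hcomm, hpow⟩ := Cfsg.Agent.S0012.result (G := ↥P) p hPp
    have hsurj := QuotientGroup.mk'_surjective P1
    have hea : IsElementaryAbelian p (P.map (QuotientGroup.mk' P1)) := by
      rw [Cfsg.Agent.H13.ea_iff]
      constructor
      · rintro _ ⟨x, hx, rfl⟩ _ ⟨y, hy, rfl⟩
        have h1 : ⁅(⟨x, hx⟩ : P), ⟨y, hy⟩⁆ ∈ commutator P := by
          rw [commutator_def]
          exact Subgroup.commutator_mem_commutator (Subgroup.mem_top _) (Subgroup.mem_top _)
        have h2 : ⁅x, y⁆ ∈ P1 := ⟨_, hcomm h1, rfl⟩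
        have h3 : QuotientGroup.mk' P1 ⁅x, y⁆ = 1 := (QuotientGroup.eq_one_iff _).mpr h2
        rw [commutatorElement_def, map_mul, map_mul, map_mul, map_inv, map_inv,
          mul_inv_eq_one, mul_inv_eq_iff_eq_mul] at h3
        exact h3
      · rintro _ ⟨x, hx, rfl⟩
        have h2 : x ^ p ∈ P1 := ⟨_, hpow ⟨x, hx⟩, rfl⟩
        rw [← map_pow]
        exact (QuotientGroup.eq_one_iff _).mpr h2
    have hqb : ⁅⁅P.map (QuotientGroup.mk' P1), Subgroup.zpowers (QuotientGroup.mk' P1 a)⁆,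
        Subgroup.zpowers (QuotientGroup.mk' P1 a)⁆ = ⊥ := by
      rw [← MonoidHom.map_zpowers, ← Subgroup.map_commutator, ← Subgroup.map_commutator, hq,
        Subgroup.map_bot]
    have hι : ∀ γ : G, QuotientGroup.mk' P1 γ ∈ Subgroup.normalizer
        ((P.map (QuotientGroup.mk' P1) : Subgroup (G ⧸ P1)) : Set (G ⧸ P1)) := by
      intro γ
      have : (P.map (QuotientGroup.mk' P1)).Normal := hPn.map _ hsurj
      rw [Subgroup.normalizer_eq_top]; trivial
    obtain ⟨N, hN, haN, hNp⟩ := Cfsg.Agent.H58.quad_normal_group_solv hp2 hp3 (P.map (QuotientGroup.mk' P1)) hea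
      (QuotientGroup.mk' P1) hι a hqb
    refine ⟨N ⊓ M2, Subgroup.normal_inf_normal N M2, ⟨haN, haM2⟩, ?_⟩
    rintro g ⟨hgN, hgM⟩
    obtain ⟨k1, hk1⟩ := hNp g hgN
    obtain ⟨k2, hk2⟩ := hM2 g hgM
    obtain ⟨j, hj⟩ := hP1p.exists_card_eq
    set h := g ^ p ^ (k1 + k2) with hh
    have hC1 : h ∈ Subgroup.centralizer (P1 : Set G) := by
      rw [hh, pow_add, mul_comm, pow_mul]
      exact pow_mem hk2 _
    have hC2 : QuotientGroup.mk' P1 h ∈ Subgroup.centralizer
        ((P.map (QuotientGroup.mk' P1) : Subgroup (G ⧸ P1)) : Set (G ⧸ P1)) := by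
      rw [hh, pow_add, pow_mul, map_pow, map_pow]
      exact pow_mem hk1 _
    refine ⟨k1 + k2 + j, ?_⟩
    have hgh : g ^ p ^ (k1 + k2 + j) = h ^ p ^ j := by
      rw [hh, ← pow_mul, ← pow_add]
    rw [hgh, Subgroup.mem_centralizer_iff]
    intro x hx
    have hc : h * x * h⁻¹ * x⁻¹ ∈ P1 := by
      have h1 := Subgroup.mem_centralizer_iff.mp hC2 (QuotientGroup.mk' P1 x) ⟨x, hx, rfl⟩
      rw [← QuotientGroup.eq_one_iff, ← QuotientGroup.mk'_apply, map_mul, map_mul, map_mul,
        map_inv, map_inv, ← h1]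
      group
    have h2 := conj_pow_of_comm hC1 hc (p ^ j)
    have h3 : (h * x * h⁻¹ * x⁻¹) ^ p ^ j = 1 := by
      have := pow_card_eq_one' (G := ↥P1) (x := ⟨_, hc⟩)
      rw [hj] at this
      exact congrArg Subtype.val this
    rw [h3, one_mul] at h2
    calc x * h ^ p ^ j = (h ^ p ^ j * x * (h ^ p ^ j)⁻¹) * h ^ p ^ j := by rw [h2]
      _ = h ^ p ^ j * x := by group

end Cfsg.Agent.H37.SolvQuad
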