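import Mathlib
import Cfsg.Prelude.Def_CaseTheorems
import Cfsg.Agent.H37.SolvQuad
import Cfsg.Agent.H1.Fitting
import Cfsg.Agent.H1.HallHigman
import Cfsg.Agent.H1.PCore
import Cfsg.Agent.H38.PiCore

/-!
# Centralizers of self-centralizing normal subgroups over the Fitting subgroup

`centralizer_le_of_scn`: in a finite solvable group `G` with `O_2(G) = O_3(G) = 1`, if
`F ≥ F(G)` normalizes `A` and `C_F(A) = A`, then `C_G(A) = A`.
(Thompson, N-groups, via `p`-stability for `p ≥ 5`.)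
-/

set_option autoImplicit false

namespace Cfsg.Agent.H37.ScnCent

open scoped commutatorElement
open Cfsg

universe u

variable {G : Type u} [Group G]

theorem normalizer_le_normalizer_centralizer' (H : Subgroup G) :
    Subgroup.normalizer (H : Set G) ≤
      Subgroup.normalizer ((Subgroup.centralizer (H : Set G) : Subgroup G) : Set G) := by
  have key : ∀ g ∈ Subgroup.normalizer (H : Set G), ∀ x ∈ Subgroup.centralizer (H : Set G),
      g * x * g⁻¹ ∈ Subgroup.centralizer (H : Set G) := by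
    intro g hg x hx
    rw [Subgroup.mem_centralizer_iff] at hx ⊢
    intro h hh
    have h1 : g⁻¹ * h * g ∈ H := by
      have := (Subgroup.mem_normalizer_iff'.mp hg (g⁻¹ * h)).mpr (by simpa using hh)
      simpa [mul_assoc] using this
    have h2 := hx _ h1
    calc h * (g * x * g⁻¹) = g * ((g⁻¹ * h * g) * x) * g⁻¹ := by group
      _ = g * (x * (g⁻¹ * h * g)) * g⁻¹ := by rw [h2]
      _ = g * x * g⁻¹ * h := by group
  intro g hg
  rw [Subgroup.mem_normalizer_iff]
  intro x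
  refine ⟨fun hx => key g hg x hx, fun hx => ?_⟩
  have := key g⁻¹ (inv_mem hg) _ hx
  simpa [mul_assoc] using this

theorem eq_one_of_mem_pgroup_of_coprime' {p : ℕ} {P : Subgroup G} (hP : IsPGroup p P) {c : G}
    (hc : c ∈ P) (hcop : (orderOf c).Coprime p) : c = 1 := by
  obtain ⟨j, hj⟩ := hP ⟨c, hc⟩
  have hj' : c ^ p ^ j = 1 := by
    have := congrArg Subtype.val hj
    simpa using this
  have h1 : orderOf c ∣ p ^ j := orderOf_dvd_of_pow_eq_one hj'
  have h2 : (orderOf c).Coprime (p ^ j) := Nat.Coprime.pow_right j hcop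
  have h3 : orderOf c = 1 := Nat.eq_one_of_dvd_coprimes h2 dvd_rfl h1
  exact orderOf_eq_one_iff.mp h3

theorem comm_mem {F A Q : Subgroup G} [hQ : Q.Normal] (hQF : Q ≤ F)
    (hFN : F ≤ Subgroup.normalizer (A : Set G))
    (hFC : F ⊓ Subgroup.centralizer (A : Set G) = A) {c u : G}
    (hc : c ∈ Subgroup.centralizer (A : Set G)) (hu : u ∈ Q) :
    c * u * c⁻¹ * u⁻¹ ∈ A ⊓ Q := by
  have h1 : c * u * c⁻¹ * u⁻¹ ∈ Q := Q.mul_mem (hQ.conj_mem u hu c) (Q.inv_mem hu)
  have hN : u ∈ Subgroup.normalizer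
      ((Subgroup.centralizer (A : Set G) : Subgroup G) : Set G) :=
    normalizer_le_normalizer_centralizer' A (hFN (hQF hu))
  have h2 : u * c⁻¹ * u⁻¹ ∈ Subgroup.centralizer (A : Set G) :=
    (Subgroup.mem_normalizer_iff.mp hN c⁻¹).mp (inv_mem hc)
  have h3 : c * u * c⁻¹ * u⁻¹ ∈ Subgroup.centralizer (A : Set G) := by
    have : c * u * c⁻¹ * u⁻¹ = c * (u * c⁻¹ * u⁻¹) := by group
    rw [this]; exact mul_mem hc h2
  refine Subgroup.mem_inf.mpr ⟨?_, h1⟩
  rw [← hFC]; exact Subgroup.mem_inf.mpr ⟨hQF h1, h3⟩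

/-- A `p`-element of `C(A)` centralizes every normal `q`-subgroup `Q ≤ F` (`q ≠ p`). -/
theorem centralizes_of_coprime {F A Q : Subgroup G} [hQ : Q.Normal] (hQF : Q ≤ F)
    (hFN : F ≤ Subgroup.normalizer (A : Set G))
    (hFC : F ⊓ Subgroup.centralizer (A : Set G) = A) {p q : ℕ} (hQq : IsPGroup q Q)
    (hpq : p.Coprime q) {x : G} (hx : x ∈ Subgroup.centralizer (A : Set G)) {k : ℕ}
    (hxk : x ^ p ^ k = 1) : x ∈ Subgroup.centralizer (Q : Set G) := by
  rw [Subgroup.mem_centralizer_iff]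
  intro u hu
  have hw := comm_mem hQF hFN hFC hx hu
  obtain ⟨hwA, hwQ⟩ := Subgroup.mem_inf.mp hw
  have h2 := Cfsg.Agent.H58.conj_pow_of_comm hx hwA (p ^ k)
  rw [hxk] at h2
  have h3 : (x * u * x⁻¹ * u⁻¹) ^ p ^ k = 1 := by
    have : (x * u * x⁻¹ * u⁻¹) ^ p ^ k * u = u := by rw [← h2]; group
    exact mul_eq_right.mp this
  have h4 : x * u * x⁻¹ * u⁻¹ = 1 := by
    apply eq_one_of_mem_pgroup_of_coprime' hQq hwQ
    have hd : orderOf (x * u * x⁻¹ * u⁻¹) ∣ p ^ k := orderOf_dvd_of_pow_eq_one h3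
    exact Nat.Coprime.coprime_dvd_left hd (Nat.Coprime.pow_left k hpq)
  have h5 : x * u = u * x := by
    calc x * u = (x * u * x⁻¹ * u⁻¹) * (u * x) := by group
      _ = u * x := by rw [h4, one_mul]
  exact h5.symm

/-- A `p`-element `x` of `C(A)` acts quadratically on a normal subgroup `V ≤ F`. -/
theorem quad_of_centralizer {F A V : Subgroup G} [hV : V.Normal] (hVF : V ≤ F)
    (hFN : F ≤ Subgroup.normalizer (A : Set G))
    (hFC : F ⊓ Subgroup.centralizer (A : Set G) = A) {x : G}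
    (hx : x ∈ Subgroup.centralizer (A : Set G)) :
    ⁅⁅V, Subgroup.zpowers x⁆, Subgroup.zpowers x⁆ = ⊥ := by
  have hz : Subgroup.zpowers x ≤ Subgroup.centralizer (A : Set G) := by
    rw [Subgroup.zpowers_le]; exact hx
  have h1 : ⁅V, Subgroup.zpowers x⁆ ≤ A := by
    rw [Subgroup.commutator_le]
    intro v hv z hzz
    have h := (Subgroup.mem_inf.mp (comm_mem hVF hFN hFC (hz hzz) hv)).1
    have : ⁅v, z⁆ = (z * v * z⁻¹ * v⁻¹)⁻¹ := by
      rw [commutatorElement_def]; group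
    rw [this]; exact inv_mem h
  have h2 : ⁅A, Subgroup.zpowers x⁆ = ⊥ := by
    rw [Subgroup.commutator_eq_bot_iff_le_centralizer]
    intro a ha
    rw [Subgroup.mem_centralizer_iff]
    intro z hzz
    exact (Subgroup.mem_centralizer_iff.mp (hz hzz) a ha).symm
  rw [eq_bot_iff, ← h2]
  exact Subgroup.commutator_mono h1 le_rfl

section solv

variable [Finite G] [Group.IsSolvable G]

/-- In a finite solvable group, a `p`-element acting quadratically on `O_p(G)` (`p ≥ 5`, or
`O_p(G) = 1`) and centralizing `O_q(G)` for all primes `q ≠ p` lies in `O_p(G)`. -/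
theorem mem_pCore_of_quadratic {p : ℕ} [hp : Fact p.Prime]
    (hp23 : (p ≠ 2 ∧ p ≠ 3) ∨ pCore p G = ⊥) {x : G} {k : ℕ} (hxk : x ^ p ^ k = 1)
    (hquad : ⁅⁅pCore p G, Subgroup.zpowers x⁆, Subgroup.zpowers x⁆ = ⊥)
    (hcent : ∀ q : ℕ, q.Prime → q ≠ p → x ∈ Subgroup.centralizer (pCore q G : Set G)) :
    x ∈ pCore p G := by
  have hVp : IsPGroup p (pCore p G) := Cfsg.Agent.H1.pCore_isPGroup p
  -- the stability subgroup
  obtain ⟨M, hMn, hxM, hM⟩ : ∃ M : Subgroup G, M.Normal ∧ x ∈ M ∧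
      ∀ g ∈ M, ∃ j : ℕ, g ^ p ^ j ∈ Subgroup.centralizer (pCore p G : Set G) := by
    rcases hp23 with ⟨h2, h3⟩ | hbot
    · exact Cfsg.Agent.H37.SolvQuad.exists_normal_quad_solv h2 h3 _ (pCore p G)
        (pCore_normal p G) hVp rfl x hquad
    · refine ⟨⊤, inferInstance, Subgroup.mem_top _, fun g _ => ⟨0, ?_⟩⟩
      rw [hbot, Subgroup.mem_centralizer_iff]
      intro y hy
      have hy1 : y = 1 := by simpa using hy
      rw [hy1, one_mul, mul_one]
  -- the p'-part of the Fitting subgroup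
  set E : Subgroup G := ⨆ q : {q : Nat.Primes // (q : ℕ) ≠ p}, pCore ((q : Nat.Primes) : ℕ) G
    with hE
  have hEn : E.Normal := by
    rw [hE]; infer_instance
  have hFit : fittingSubgroup G ≤ pCore p G ⊔ E := by
    rw [Cfsg.Agent.H1.fitting_eq_iSup_pCore]
    apply iSup_le
    intro q
    by_cases hq : (q : ℕ) = p
    · rw [hq]; exact le_sup_left
    · exact le_trans (le_iSup (fun q : {q : Nat.Primes // (q : ℕ) ≠ p} =>
        pCore ((q : Nat.Primes) : ℕ) G) ⟨q, hq⟩) le_sup_right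
  have hEN : E ≤ pPrimeCore p G := by
    rw [hE]
    apply iSup_le
    rintro ⟨q, hq⟩
    have hfq : Fact (q : ℕ).Prime := ⟨q.2⟩
    apply Cfsg.Agent.H1.le_pPrimeCore
    obtain ⟨j, hj⟩ := (Cfsg.Agent.H1.pCore_isPGroup (G := G) (q : ℕ)).exists_card_eq
    rw [hj]
    exact Nat.Coprime.pow_left j ((Nat.coprime_primes q.2 hp.out).mpr hq)
  have hNcop : (Nat.card (pPrimeCore p G)).Coprime p :=
    Cfsg.Agent.H1.pPrimeCore_card_coprime p
  have hVN : pCore p G ⊓ pPrimeCore p G = ⊥ := by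
    apply Disjoint.eq_bot
    apply Subgroup.disjoint_of_coprime_natCard
    obtain ⟨j, hj⟩ := hVp.exists_card_eq
    rw [hj]
    exact Nat.Coprime.pow_left j hNcop.symm
  have hcomm : ∀ u ∈ pCore p G, ∀ v ∈ E, u * v = v * u := by
    intro u hu v hv
    exact Subgroup.commute_of_normal_of_disjoint _ _ (pCore_normal p G)
      (pPrimeCore_normal p G) (disjoint_iff.mpr hVN) u v hu (hEN hv)
  -- x centralizes E
  have hxE : x ∈ Subgroup.centralizer (E : Set G) := by
    have h1 : E ≤ Subgroup.centralizer ({x} : Set G) := by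
      rw [hE]
      apply iSup_le
      rintro ⟨q, hq⟩ y hy
      rw [Subgroup.mem_centralizer_iff]
      intro z hz
      rw [Set.mem_singleton_iff] at hz
      rw [hz]
      exact (Subgroup.mem_centralizer_iff.mp (hcent q q.2 hq) y hy).symm
    rw [Subgroup.mem_centralizer_iff]
    intro y hy
    exact (Subgroup.mem_centralizer_iff.mp (h1 hy) x rfl).symm
  set Y : Subgroup G := M ⊓ Subgroup.centralizer (E : Set G) with hY
  have hYn : Y.Normal := by
    rw [hY]; exact Subgroup.normal_inf_normal _ _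
  have hxY : x ∈ Y := Subgroup.mem_inf.mpr ⟨hxM, hxE⟩
  -- a p-power of every element of Y lies in E
  have hYE : ∀ y ∈ Y, ∃ n : ℕ, y ^ p ^ n ∈ E := by
    intro y hy
    obtain ⟨hyM, hyE⟩ := Subgroup.mem_inf.mp hy
    obtain ⟨j, hj⟩ := hM y hyM
    have hzF : y ^ p ^ j ∈ Subgroup.centralizer (fittingSubgroup G : Set G) := by
      rw [Subgroup.mem_centralizer_iff]
      intro f hf
      obtain ⟨u, hu, v, hv, rfl⟩ := Subgroup.mem_sup_of_normal_right.mp (hFit hf)
      have h1 : u * y ^ p ^ j = y ^ p ^ j * u := Subgroup.mem_centralizer_iff.mp hj u hu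
      have h2 : v * y ^ p ^ j = y ^ p ^ j * v :=
        Subgroup.mem_centralizer_iff.mp (pow_mem hyE _) v hv
      calc u * v * y ^ p ^ j = u * (v * y ^ p ^ j) := by group
        _ = u * (y ^ p ^ j * v) := by rw [h2]
        _ = (u * y ^ p ^ j) * v := by group
        _ = y ^ p ^ j * u * v := by rw [h1]
        _ = y ^ p ^ j * (u * v) := by group
    have hz := hFit (Cfsg.Agent.H1.centralizer_fitting_le hzF)
    obtain ⟨u, hu, v, hv, huv⟩ := Subgroup.mem_sup_of_normal_right.mp hz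
    obtain ⟨i, hi⟩ := hVp ⟨u, hu⟩
    have hi' : u ^ p ^ i = 1 := by
      have := congrArg Subtype.val hi
      simpa using this
    refine ⟨j + i, ?_⟩
    have h3 : y ^ p ^ (j + i) = (u * v) ^ p ^ i := by
      rw [huv, ← pow_mul, ← pow_add]
    rw [h3, (show Commute u v from hcomm u hu v hv).mul_pow, hi', one_mul]
    exact pow_mem hv _
  -- Y is nilpotent
  have hYnil : Group.IsNilpotent ↥Y := by
    apply Group.of_quotient_center_nilpotent
    have hpg : IsPGroup p (↥Y ⧸ Subgroup.center ↥Y) := by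
      intro g
      obtain ⟨y, rfl⟩ := QuotientGroup.mk_surjective g
      obtain ⟨n, hn⟩ := hYE (y : G) y.2
      refine ⟨n, ?_⟩
      rw [← QuotientGroup.mk_pow, QuotientGroup.eq_one_iff, Subgroup.mem_center_iff]
      intro g'
      apply Subtype.ext
      have hg'E : (g' : G) ∈ Subgroup.centralizer (E : Set G) := (Subgroup.mem_inf.mp g'.2).2
      have := Subgroup.mem_centralizer_iff.mp hg'E _ hn
      simp only [Subgroup.coe_mul, Subgroup.coe_pow]
      exact this.symm
    exact hpg.isNilpotent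
  have hYF : Y ≤ fittingSubgroup G := Cfsg.Agent.H1.le_fitting Y hYnil
  obtain ⟨u, hu, v, hv, huv⟩ := Subgroup.mem_sup_of_normal_right.mp (hFit (hYF hxY))
  have h1 : u ^ p ^ k * v ^ p ^ k = 1 := by
    rw [← (show Commute u v from hcomm u hu v hv).mul_pow, huv, hxk]
  have h2 : v ^ p ^ k ∈ pCore p G ⊓ pPrimeCore p G := by
    refine Subgroup.mem_inf.mpr ⟨?_, pow_mem (hEN hv) _⟩
    have : v ^ p ^ k = (u ^ p ^ k)⁻¹ := eq_inv_of_mul_eq_one_right h1
    rw [this]
    exact inv_mem (pow_mem hu _)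
  rw [hVN, Subgroup.mem_bot] at h2
  have h3 : orderOf v ∣ Nat.card (pPrimeCore p G) := by
    have := Subgroup.orderOf_dvd_natCard (pPrimeCore p G) (hEN hv)
    exact this
  have h4 : orderOf v ∣ p ^ k := orderOf_dvd_of_pow_eq_one h2
  have h5 : orderOf v = 1 := by
    have hc : (Nat.card (pPrimeCore p G)).Coprime (p ^ k) := Nat.Coprime.pow_right k hNcop
    exact Nat.eq_one_of_dvd_coprimes hc h3 h4
  rw [orderOf_eq_one_iff] at h5
  rw [h5, mul_one] at huv
  rw [← huv]; exact hu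

/-- In a finite solvable group `G` with `O_2(G) = O_3(G) = 1`, if `F` contains every `O_p(G)`,
normalizes `A`, and `C_F(A) = A`, then `C_G(A) ≤ A`. -/
theorem centralizer_le_of_scn {F A : Subgroup G}
    (hFN : F ≤ Subgroup.normalizer (A : Set G))
    (hFC : F ⊓ Subgroup.centralizer (A : Set G) = A)
    (hcore : ∀ p : ℕ, p.Prime → pCore p G ≤ F)
    (h2 : pCore 2 G = ⊥) (h3 : pCore 3 G = ⊥) :
    Subgroup.centralizer (A : Set G) ≤ A := by
  set B := Subgroup.centralizer (A : Set G) with hB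
  have key : ∀ p : ℕ, p.Prime → ∀ x ∈ B, ∀ k : ℕ, x ^ p ^ k = 1 → x ∈ A := by
    intro p hp x hx k hxk
    have hfp : Fact p.Prime := ⟨hp⟩
    have hp23 : (p ≠ 2 ∧ p ≠ 3) ∨ pCore p G = ⊥ := by
      by_cases hp2 : p = 2
      · right; rw [hp2]; exact h2
      · by_cases hp3 : p = 3
        · right; rw [hp3]; exact h3
        · left; exact ⟨hp2, hp3⟩
    have hmem : x ∈ pCore p G := by
      apply mem_pCore_of_quadratic hp23 hxk
      · exact quad_of_centralizer (hcore p hp) hFN hFC hx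
      · intro q hq hqp
        have hfq : Fact q.Prime := ⟨hq⟩
        exact centralizes_of_coprime (hcore q hq) hFN hFC (Cfsg.Agent.H1.pCore_isPGroup q)
          ((Nat.coprime_primes hp hq).mpr (Ne.symm hqp)) hx hxk
    rw [← hFC]
    exact Subgroup.mem_inf.mpr ⟨hcore p hp hmem, hx⟩
  have hS : ∀ p : Nat.Primes, Nonempty (Sylow (p : ℕ) ↥B) := fun p => inferInstance
  have htop := Cfsg.Agent.H1.iSup_sylow_eq_top (G := ↥B) (fun p => (hS p).some)
  have hle : (⨆ p : Nat.Primes, (((hS p).some : Sylow (p : ℕ) ↥B) : Subgroup ↥B)) ≤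
      A.subgroupOf B := by
    apply iSup_le
    intro p y hy
    rw [Subgroup.mem_subgroupOf]
    have hfp : Fact (p : ℕ).Prime := ⟨p.2⟩
    obtain ⟨k, hk⟩ := ((hS p).some : Sylow (p : ℕ) ↥B).2 ⟨y, hy⟩
    have hk' : (y : G) ^ (p : ℕ) ^ k = 1 := by
      have := congrArg (fun z => ((z : ↥B) : G)) (congrArg Subtype.val hk)
      simpa using this
    exact key p p.2 (y : G) y.2 k hk'
  rw [htop] at hle
  intro c hc
  have := hle (Subgroup.mem_top (⟨c, hc⟩ : ↥B))
  exact Subgroup.mem_subgroupOf.mp this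

end solv

end Cfsg.Agent.H37.ScnCent
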