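import Mathlib
import Cfsg.Prelude.Def_SolvableStructure
import Cfsg.Prelude.Def_Solvable
import Cfsg.Agent.H13.PCore
import Cfsg.Agent.H27.Rad
import Cfsg.Agent.H60.Cores
import Cfsg.Agent.H64.SqfP2
import Cfsg.Agent.H67.Core
import Cfsg.Agent.H72.BHM1
import Cfsg.Agent.S0526
import Cfsg.Agent.H37.SqfCore

/-!
# S4130, piece P3 (helper37): square-free class sizes, `G` supersolvable ⇒ `G / F(G)` is cyclic
of square-free order

Main result: `Cfsg.Agent.H37.Sqf.fitting_quot`.

Proof. `G' ≤ F = F(G)`, so `G / F` is abelian and it suffices to show `r² ∤ |G : F|` for each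
prime `r`.  Let `S` be a Sylow `r`-subgroup and `W = F ∩ O_{r'}(G)` (the `r'`-part of `F`).
For `w ∈ W` the index `|S : C_S(w)|` divides the class size of `w` (`relIndex_cz_dvd`), so it
divides `r`; `S'` centralizes `W`; hence by the core lemma `|S : C_S(W)|` divides `r`.  Finally
`C_S(W)` is a subnormal `r`-subgroup, so it lies in `O_r(G) ≤ F`, and `|S : S ∩ F|` is the
`r`-part of `|G : F|`.
-/

set_option autoImplicit false

namespace Cfsg.Agent.H37.Sqf

open Cfsg
open scoped commutatorElement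

universe u

variable {G : Type u} [Group G]

/-- the `r'`-part of the Fitting subgroup -/
def fitPrime (r : ℕ) (G : Type u) [Group G] : Subgroup G := fittingSubgroup G ⊓ pPrimeCore r G

instance fitPrime_normal (r : ℕ) : (fitPrime r G).Normal := by
  have := H67.fittingSubgroup_normal G
  have := H67.pPrimeCore_normal r G
  unfold fitPrime
  infer_instance

theorem fitPrime_le_fitting (r : ℕ) : fitPrime r G ≤ fittingSubgroup G := inf_le_left

theorem normal_of_commutator_le {R : Subgroup G} (h : commutator G ≤ R) : R.Normal := by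
  constructor
  intro n hn g
  have h1 : g * n * g⁻¹ = ⁅g, n⁆ * n := by rw [commutatorElement_def]; group
  rw [h1]
  refine R.mul_mem (h ?_) hn
  rw [commutator_def]
  exact Subgroup.commutator_mem_commutator (Subgroup.mem_top g) (Subgroup.mem_top n)

variable [Finite G]

theorem card_fitPrime_coprime (r : ℕ) : (Nat.card (fitPrime r G)).Coprime r :=
  Nat.Coprime.coprime_dvd_left (Subgroup.card_dvd_of_le inf_le_right)
    (H60.card_pPrimeCore_coprime r)

theorem fitting_le_sup (r : ℕ) [hr : Fact r.Prime] :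
    fittingSubgroup G ≤ pCore r G ⊔ fitPrime r G := by
  have h := H27.fitting_eq_pCoreJoin (G := G)
  rw [h]
  unfold H27.pCoreJoin
  apply iSup_le
  rintro ⟨q, hq⟩
  have hqp : q.Prime := Nat.prime_of_mem_primeFactors hq
  have : Fact q.Prime := ⟨hqp⟩
  by_cases hqr : q = r
  · subst hqr; exact le_sup_left
  · refine le_trans ?_ le_sup_right
    refine le_inf (H27.pCore_le_fitting q) (H60.le_pPrimeCore (H67.pCore_normal q G) ?_)
    obtain ⟨n, hn⟩ := IsPGroup.iff_card.1 (H60.isPGroup_pCore (G := G) q)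
    rw [hn]
    exact Nat.Coprime.pow_left n ((Nat.coprime_primes hqp hr.out).mpr hqr)

omit [Finite G] in
theorem pow_card_fitPrime {r : ℕ} {w : G} (hw : w ∈ fitPrime r G) :
    w ^ (Nat.card (fitPrime r G)) = 1 := by
  have h1 := pow_card_eq_one' (G := fitPrime r G) (x := ⟨w, hw⟩)
  have h2 : ((⟨w, hw⟩ : fitPrime r G) : G) ^ Nat.card (fitPrime r G) = 1 := by
    rw [← Subgroup.coe_pow, h1, Subgroup.coe_one]
  exact h2

/-- an `r`-element whose commutator with `w ∈ W` is central centralizes `w` -/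
theorem conj_eq_of_central {r : ℕ} {s w : G} {k : ℕ} (hs : s ^ (r ^ k) = 1)
    (hw : w ∈ fitPrime r G) (hz : s * w * s⁻¹ * w⁻¹ ∈ Subgroup.center G) : s * w * s⁻¹ = w := by
  have hco : (r ^ k).Coprime (Nat.card (fitPrime r G)) :=
    Nat.Coprime.pow_left k (card_fitPrime_coprime r).symm
  have h1 : s * w * s⁻¹ = (s * w * s⁻¹ * w⁻¹) * w := by group
  have h2 := H72.BHM.central_comm_trivial hz h1 (r ^ k) (Nat.card (fitPrime r G))
    (by rw [hs]; exact Subgroup.one_mem _)
    (by rw [pow_card_fitPrime hw]; exact Subgroup.one_mem _) hco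
  rw [h1, h2, one_mul]

theorem commutator_le_fitting (hss : Cfsg.IsSupersolvable G) :
    commutator G ≤ fittingSubgroup G :=
  le_sSup ⟨inferInstance, Cfsg.Agent.S0526.result hss⟩

theorem relIndex_cz_dvd (h : ∀ x : G, Squarefree (Subgroup.centralizer ({x} : Set G)).index)
    (hss : Cfsg.IsSupersolvable G) {r : ℕ} [hr : Fact r.Prime] (S : Sylow r G)
    {w : G} (hw : w ∈ fitPrime r G) : (cz w).relIndex S ∣ r := by
  have hFR : fittingSubgroup G ≤ (S : Subgroup G) ⊔ fitPrime r G :=
    (fitting_le_sup r).trans (sup_le_sup_right (H13.pCore_le_sylow S) _)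
  have hRn : ((S : Subgroup G) ⊔ fitPrime r G).Normal :=
    normal_of_commutator_le ((commutator_le_fitting hss).trans hFR)
  have h1 : (cz w).relIndex ((S : Subgroup G) ⊔ fitPrime r G) ∣ (cz w).index :=
    H72.BHM.relIndex_dvd_index_of_normal_right _ _
  have h2 : ((cz w ⊓ ((S : Subgroup G) ⊔ fitPrime r G)) ⊔ fitPrime r G).relIndex
      ((S : Subgroup G) ⊔ fitPrime r G) ∣ (cz w).relIndex ((S : Subgroup G) ⊔ fitPrime r G) := by
    have := Subgroup.relIndex_dvd_of_le_left ((S : Subgroup G) ⊔ fitPrime r G)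
      (le_sup_left : cz w ⊓ ((S : Subgroup G) ⊔ fitPrime r G)
        ≤ (cz w ⊓ ((S : Subgroup G) ⊔ fitPrime r G)) ⊔ fitPrime r G)
    rwa [Subgroup.inf_relIndex_right] at this
  have h3 : ((cz w ⊓ ((S : Subgroup G) ⊔ fitPrime r G)) ⊔ fitPrime r G).relIndex S
      = ((cz w ⊓ ((S : Subgroup G) ⊔ fitPrime r G)) ⊔ fitPrime r G).relIndex
        ((S : Subgroup G) ⊔ fitPrime r G) := by
    have e1 : (cz w ⊓ ((S : Subgroup G) ⊔ fitPrime r G)) ⊔ fitPrime r G
        = Subgroup.comap (QuotientGroup.mk' (fitPrime r G))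
          (Subgroup.map (QuotientGroup.mk' (fitPrime r G))
            (cz w ⊓ ((S : Subgroup G) ⊔ fitPrime r G))) := by
      rw [Subgroup.comap_map_eq, QuotientGroup.ker_mk']
    have e2 := Subgroup.relIndex_map_map (QuotientGroup.mk' (fitPrime r G))
      (cz w ⊓ ((S : Subgroup G) ⊔ fitPrime r G)) (S : Subgroup G)
    rw [QuotientGroup.ker_mk'] at e2
    rw [← e2, e1, Subgroup.relIndex_comap]
  have h4 : ((cz w ⊓ ((S : Subgroup G) ⊔ fitPrime r G)) ⊔ fitPrime r G) ⊓ (S : Subgroup G)
      ≤ cz w := by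
    intro s hs
    obtain ⟨c, hc, u, hu, rfl⟩ := Subgroup.mem_sup_of_normal_right.mp hs.1
    have hcw : c * w * c⁻¹ = w := mem_cz.mp hc.1
    have hz' : u * w * u⁻¹ * w⁻¹ ∈ Subgroup.center G :=
      H64.Sqf.fitting_comm_central h u w (fitPrime_le_fitting r hu) (fitPrime_le_fitting r hw)
    obtain ⟨k, hk⟩ := S.isPGroup' ⟨c * u, hs.2⟩
    have hk' : (c * u) ^ (r ^ k) = 1 := by
      have := congrArg Subtype.val hk
      simpa using this
    apply mem_cz.mpr
    apply conj_eq_of_central hk' hw
    have hzc : c * (u * w * u⁻¹ * w⁻¹) = (u * w * u⁻¹ * w⁻¹) * c :=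
      Subgroup.mem_center_iff.mp hz' c
    have e : (c * u) * w * (c * u)⁻¹ * w⁻¹ = u * w * u⁻¹ * w⁻¹ := by
      calc (c * u) * w * (c * u)⁻¹ * w⁻¹
          = (c * (u * w * u⁻¹ * w⁻¹)) * c⁻¹ * (c * w * c⁻¹) * w⁻¹ := by group
        _ = u * w * u⁻¹ * w⁻¹ := by rw [hzc, hcw]; group
    rw [e]; exact hz'
  have h5 : (cz w).relIndex S
      ∣ ((cz w ⊓ ((S : Subgroup G) ⊔ fitPrime r G)) ⊔ fitPrime r G).relIndex S := by
    have := Subgroup.relIndex_dvd_of_le_left (S : Subgroup G) h4
    rwa [Subgroup.inf_relIndex_right] at this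
  have hsq : Squarefree ((cz w).relIndex S) := by
    refine (h w).squarefree_of_dvd ?_
    rw [h3] at h5
    exact (h5.trans h2).trans h1
  obtain ⟨n, hn⟩ := IsPGroup.iff_card.1 S.isPGroup'
  have hd : (cz w).relIndex S ∣ r ^ n := hn ▸ Subgroup.relIndex_dvd_card _ _
  obtain ⟨j, -, hj⟩ := (Nat.dvd_prime_pow hr.out).1 hd
  rw [hj] at hsq ⊢
  rcases j with _ | _ | j
  · simp
  · simp
  · exfalso
    have h2 : r * r ∣ r ^ (j + 1 + 1) := ⟨r ^ j, by ring⟩
    exact hr.out.not_isUnit (hsq r h2)

theorem sylow_comm_conj (h : ∀ x : G, Squarefree (Subgroup.centralizer ({x} : Set G)).index)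
    (hss : Cfsg.IsSupersolvable G) {r : ℕ} [Fact r.Prime] (S : Sylow r G)
    {a b w : G} (ha : a ∈ S) (hb : b ∈ S) (hw : w ∈ fitPrime r G) :
    (a * b) * w * (a * b)⁻¹ = (b * a) * w * (b * a)⁻¹ := by
  have hzS : (b * a)⁻¹ * (a * b) ∈ (S : Subgroup G) :=
    mul_mem (inv_mem (mul_mem hb ha)) (mul_mem ha hb)
  have hzF : (b * a)⁻¹ * (a * b) ∈ fittingSubgroup G := by
    apply commutator_le_fitting hss
    have : (b * a)⁻¹ * (a * b) = ⁅a⁻¹, b⁻¹⁆ := by rw [commutatorElement_def]; group
    rw [this, commutator_def]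
    exact Subgroup.commutator_mem_commutator (Subgroup.mem_top _) (Subgroup.mem_top _)
  obtain ⟨k, hk⟩ := S.isPGroup' ⟨(b * a)⁻¹ * (a * b), hzS⟩
  have hk' : ((b * a)⁻¹ * (a * b)) ^ (r ^ k) = 1 := by
    have := congrArg Subtype.val hk
    simpa using this
  have hzw := conj_eq_of_central hk' hw
    (H64.Sqf.fitting_comm_central h _ w hzF (fitPrime_le_fitting r hw))
  have e : (a * b) * w * (a * b)⁻¹
      = (b * a) * (((b * a)⁻¹ * (a * b)) * w * ((b * a)⁻¹ * (a * b))⁻¹) * (b * a)⁻¹ := by group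
  rw [e, hzw]

theorem relIndex_centralizer_dvd
    (h : ∀ x : G, Squarefree (Subgroup.centralizer ({x} : Set G)).index)
    (hss : Cfsg.IsSupersolvable G) {r : ℕ} [hr : Fact r.Prime] (S : Sylow r G) :
    (Subgroup.centralizer (fitPrime r G : Set G)).relIndex S ∣ r := by
  apply core_lemma hr.out (S : Subgroup G) (fitPrime r G) S.isPGroup'
  · intro d hd k hk
    exact H72.BHM.eq_one_of_pow_coprime d (r ^ k) (Nat.card (fitPrime r G)) hk
      (pow_card_fitPrime hd) (Nat.Coprime.pow_left k (card_fitPrime_coprime r).symm)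
  · intro a ha b hb w hw
    exact sylow_comm_conj h hss S ha hb hw
  · intro w hw
    exact relIndex_cz_dvd h hss S hw
  · intro s _ w hw
    exact (fitPrime_normal r).conj_mem w hw s

theorem sylow_inf_centralizer_le
    (h : ∀ x : G, Squarefree (Subgroup.centralizer ({x} : Set G)).index)
    (hss : Cfsg.IsSupersolvable G) {r : ℕ} [hr : Fact r.Prime] (S : Sylow r G) :
    (S : Subgroup G) ⊓ Subgroup.centralizer (fitPrime r G : Set G) ≤ fittingSubgroup G := by
  have hYS : pCore r G ≤ S := H13.pCore_le_sylow S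
  have hYC : pCore r G ≤ Subgroup.centralizer (fitPrime r G : Set G) := by
    intro y hy
    rw [Subgroup.mem_centralizer_iff]
    intro w hw
    obtain ⟨k, hk⟩ := (H60.isPGroup_pCore (G := G) r) ⟨y, hy⟩
    have hk' : y ^ (r ^ k) = 1 := by
      have := congrArg Subtype.val hk
      simpa using this
    have := conj_eq_of_central hk' hw
      (H64.Sqf.fitting_comm_central h y w (H27.pCore_le_fitting r hy) (fitPrime_le_fitting r hw))
    rw [mul_inv_eq_iff_eq_mul] at this
    exact this.symm
  have hYD : pCore r G ≤ (S : Subgroup G) ⊓ Subgroup.centralizer (fitPrime r G : Set G) :=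
    le_inf hYS hYC
  have hFle : fittingSubgroup G
      ≤ ((S : Subgroup G) ⊓ Subgroup.centralizer (fitPrime r G : Set G)) ⊔ fitPrime r G :=
    (fitting_le_sup r).trans (sup_le_sup_right hYD _)
  have hKn : (((S : Subgroup G) ⊓ Subgroup.centralizer (fitPrime r G : Set G))
      ⊔ fittingSubgroup G).Normal :=
    normal_of_commutator_le ((commutator_le_fitting hss).trans le_sup_right)
  have hWD : fitPrime r G ≤ Subgroup.centralizer
      ((((S : Subgroup G) ⊓ Subgroup.centralizer (fitPrime r G : Set G)) : Subgroup G) : Set G) :=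
    Subgroup.le_centralizer_iff.mp inf_le_right
  have hDK : (((S : Subgroup G) ⊓ Subgroup.centralizer (fitPrime r G : Set G)).subgroupOf
      (((S : Subgroup G) ⊓ Subgroup.centralizer (fitPrime r G : Set G))
        ⊔ fittingSubgroup G)).Normal := by
    rw [Subgroup.normal_subgroupOf_iff_le_normalizer le_sup_left]
    refine sup_le Subgroup.le_normalizer (hFle.trans (sup_le Subgroup.le_normalizer ?_))
    exact hWD.trans (Subgroup.centralizer_le_normalizer _)
  have hsub : ((S : Subgroup G) ⊓ Subgroup.centralizer (fitPrime r G : Set G)).IsSubnormal :=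
    Subgroup.IsSubnormal.trans le_sup_left hDK.isSubnormal hKn.isSubnormal
  have hDp : IsPGroup r ((S : Subgroup G) ⊓ Subgroup.centralizer (fitPrime r G : Set G) :
      Subgroup G) := S.isPGroup'.to_le inf_le_left
  have h9 := H27.le_rad_of_subnormal (H27.isoInv_pGroup r) (H27.radClosed_pGroup r) hsub hDp
  exact h9.trans (H27.pCore_le_fitting r)

theorem not_sq_dvd_index (h : ∀ x : G, Squarefree (Subgroup.centralizer ({x} : Set G)).index)
    (hss : Cfsg.IsSupersolvable G) (r : ℕ) (hr : r.Prime) :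
    ¬ r * r ∣ (fittingSubgroup G).index := by
  intro hdvd
  have : Fact r.Prime := ⟨hr⟩
  obtain ⟨S⟩ : Nonempty (Sylow r G) := inferInstance
  have hFn : (fittingSubgroup G).Normal := H67.fittingSubgroup_normal G
  have h1 : (fittingSubgroup G).relIndex S ∣ r := by
    have hle : Subgroup.centralizer (fitPrime r G : Set G) ⊓ (S : Subgroup G)
        ≤ fittingSubgroup G := by
      rw [inf_comm]; exact sylow_inf_centralizer_le h hss S
    have := Subgroup.relIndex_dvd_of_le_left (S : Subgroup G) hle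
    rw [Subgroup.inf_relIndex_right] at this
    exact this.trans (relIndex_centralizer_dvd h hss S)
  have h2 : (fittingSubgroup G).relIndex ((S : Subgroup G) ⊔ fittingSubgroup G)
      * ((S : Subgroup G) ⊔ fittingSubgroup G).index = (fittingSubgroup G).index :=
    Subgroup.relIndex_mul_index le_sup_right
  rw [Subgroup.relIndex_sup_right] at h2
  have h3 : ((S : Subgroup G) ⊔ fittingSubgroup G).index ∣ (S : Subgroup G).index :=
    Subgroup.index_dvd_of_le le_sup_left
  have h4 : ¬ r ∣ (S : Subgroup G).index := S.not_dvd_index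
  have h5 : (r * r).Coprime ((S : Subgroup G) ⊔ fittingSubgroup G).index := by
    have : r.Coprime ((S : Subgroup G) ⊔ fittingSubgroup G).index :=
      (Nat.Prime.coprime_iff_not_dvd hr).mpr (fun hd => h4 (hd.trans h3))
    exact Nat.Coprime.mul_left this this
  rw [← h2] at hdvd
  have h6 : r * r ∣ (fittingSubgroup G).relIndex S := h5.dvd_of_dvd_mul_right hdvd
  have h7 : r * r ∣ r := h6.trans h1
  have h8 := Nat.le_of_dvd hr.pos h7
  nlinarith [hr.two_le]

/-- **S4130-P3**: if all conjugacy class sizes of the supersolvable group `G` are square-free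
then `G / F(G)` is cyclic and `|G : F(G)|` is square-free. -/
theorem fitting_quot (h : ∀ x : G, Squarefree (Subgroup.centralizer ({x} : Set G)).index)
    (hss : Cfsg.IsSupersolvable G) :
    ∀ _h : (fittingSubgroup G).Normal,
      IsCyclic (G ⧸ fittingSubgroup G) ∧ Squarefree (fittingSubgroup G).index := by
  intro hFn
  have hsq : Squarefree (fittingSubgroup G).index := by
    rw [Nat.squarefree_iff_prime_squarefree]
    intro r hr hdvd
    exact not_sq_dvd_index h hss r hr hdvd
  refine ⟨?_, hsq⟩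
  have hcomm : ∀ a b : G ⧸ fittingSubgroup G, a * b = b * a := by
    intro a b
    induction a using QuotientGroup.induction_on with | _ a => ?_
    induction b using QuotientGroup.induction_on with | _ b => ?_
    rw [← QuotientGroup.mk_mul, ← QuotientGroup.mk_mul, eq_comm, QuotientGroup.eq]
    apply commutator_le_fitting hss
    have : (b * a)⁻¹ * (a * b) = ⁅a⁻¹, b⁻¹⁆ := by rw [commutatorElement_def]; group
    rw [this, commutator_def]
    exact Subgroup.commutator_mem_commutator (Subgroup.mem_top _) (Subgroup.mem_top _)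
  have : Group.IsNilpotent (G ⧸ fittingSubgroup G) := by
    refine ⟨⟨1, ?_⟩⟩
    rw [Subgroup.upperCentralSeries_one, eq_top_iff]
    intro x _
    rw [Subgroup.mem_center_iff]
    intro y
    exact hcomm y x
  have : IsZGroup (G ⧸ fittingSubgroup G) := by
    apply IsZGroup.of_squarefree
    rw [← Subgroup.index_eq_card]
    exact hsq
  infer_instance

end Cfsg.Agent.H37.Sqf
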