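import Mathlib
import Cfsg.Agent.H4.TnDefs

/-!
# TN-CENT (for S3805): centralizer orders in the `S₃ × S₃` configuration
-/

set_option autoImplicit false

namespace Cfsg.Agent.H37.Tn

universe u

/-- A subgroup together with one further coset. -/
theorem ncard_union_coset {G : Type u} [Group G] [Finite G] (K : Subgroup G) (w : G)
    (hw : w ∉ K) :
    Set.ncard ((K : Set G) ∪ (fun t => t * w) '' (K : Set G)) = 2 * Nat.card K := by
  have hdisj : Disjoint (K : Set G) ((fun t => t * w) '' (K : Set G)) := by
    rw [Set.disjoint_left]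
    rintro x hx ⟨t, ht, rfl⟩
    apply hw
    have h1 : w = t⁻¹ * (t * w) := by group
    rw [h1]
    exact K.mul_mem (K.inv_mem ht) hx
  rw [Set.ncard_union_eq hdisj (Set.toFinite _) (Set.toFinite _),
    Set.ncard_image_of_injective _ (mul_left_injective w), ← Nat.card_coe_set_eq]
  have h2 : Nat.card (↥(K : Set G)) = Nat.card K := rfl
  omega

theorem comm_cancel {G : Type u} [Group G] {t k x : G} (htx : t * x = x * t)
    (hc : t * k * x = x * (t * k)) : k * x = x * k := by
  calc k * x = t⁻¹ * (t * k * x) := by group
    _ = t⁻¹ * (x * (t * k)) := by rw [hc]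
    _ = t⁻¹ * (x * t) * k := by group
    _ = t⁻¹ * (t * x) * k := by rw [htx]
    _ = x * k := by group

theorem conj_iff_comm {G : Type u} [Group G] (c x : G) : c * x * c⁻¹ = x ↔ c * x = x * c :=
  mul_inv_eq_iff_eq_mul

theorem cent : Cfsg.Agent.H4.Tn.StCent.{u} := by
  intro G _ _ T a b u v cfg
  classical
  have ha2 : a * a ≠ 1 := by
    intro h
    have h1 := cfg.indep 2 0 (by rw [pow_two, pow_zero, mul_one]; exact h)
    omega
  have hb2 : b * b ≠ 1 := by
    intro h
    have h1 := cfg.indep 0 2 (by rw [pow_two, pow_zero, one_mul]; exact h)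
    omega
  have ha1 : a ≠ 1 := by
    intro h
    apply ha2
    rw [h, mul_one]
  have hb1 : b ≠ 1 := by
    intro h
    apply hb2
    rw [h, mul_one]
  have hab1 : a * b ≠ 1 := by
    intro h
    have h1 := cfg.indep 1 1 (by rw [pow_one, pow_one]; exact h)
    omega
  have hainv : a⁻¹ ≠ a := by
    intro h
    apply ha2
    calc a * a = a⁻¹ * a := by rw [h]
      _ = 1 := inv_mul_cancel a
  have hbinv : b⁻¹ ≠ b := by
    intro h
    apply hb2
    calc b * b = b⁻¹ * b := by rw [h]
      _ = 1 := inv_mul_cancel b
  have huT : u ∉ T := by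
    intro h
    have h1 := cfg.comm u h b cfg.bT
    rw [cfg.ub] at h1
    exact hbinv (mul_right_cancel h1)
  have hvT : v ∉ T := by
    intro h
    have h1 := cfg.comm v h a cfg.aT
    rw [cfg.va] at h1
    exact hainv (mul_right_cancel h1)
  have huvb : u * v * b = b⁻¹ * (u * v) := by
    calc u * v * b = u * (v * b) := by group
      _ = u * (b * v) := by rw [cfg.vb]
      _ = (u * b) * v := by group
      _ = (b⁻¹ * u) * v := by rw [cfg.ub]
      _ = b⁻¹ * (u * v) := by group
  have huainv : u * a⁻¹ = a⁻¹ * u := by
    calc u * a⁻¹ = a⁻¹ * (a * u) * a⁻¹ := by group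
      _ = a⁻¹ * (u * a) * a⁻¹ := by rw [cfg.ua]
      _ = a⁻¹ * u := by group
  have huva : u * v * a = a⁻¹ * (u * v) := by
    calc u * v * a = u * (v * a) := by group
      _ = u * (a⁻¹ * v) := by rw [cfg.va]
      _ = (u * a⁻¹) * v := by group
      _ = (a⁻¹ * u) * v := by rw [huainv]
      _ = a⁻¹ * (u * v) := by group
  -- (1) the centralizer of `b`
  have key1 : {c : G | c * b * c⁻¹ = b} = (T : Set G) ∪ (fun t => t * v) '' (T : Set G) := by
    apply Set.eq_of_subset_of_subset
    · intro c hc
      have hc' : c * b = b * c := (conj_iff_comm c b).mp hc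
      have hcN : c ∈ Subgroup.normalizer (T : Set G) := by
        apply cfg.loc b cfg.bT hb1
        rw [Subgroup.mem_centralizer_iff]
        intro h hh
        rw [Set.mem_singleton_iff] at hh
        rw [hh]; exact hc'.symm
      obtain ⟨t, ht, h | h | h | h⟩ := cfg.Nelts c hcN
      · left; rw [h]; exact ht
      · exfalso
        rw [h] at hc'
        have h1 := comm_cancel (cfg.comm t ht b cfg.bT) hc'
        rw [cfg.ub] at h1
        exact hbinv (mul_right_cancel h1)
      · right; exact ⟨t, ht, h.symm⟩
      · exfalso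
        rw [h] at hc'
        have h1 := comm_cancel (cfg.comm t ht b cfg.bT) hc'
        rw [huvb] at h1
        exact hbinv (mul_right_cancel h1)
    · rintro c (ht | ⟨t, ht, rfl⟩)
      · exact (conj_iff_comm c b).mpr (cfg.comm c ht b cfg.bT)
      · apply (conj_iff_comm _ b).mpr
        calc t * v * b = t * (v * b) := by group
          _ = t * (b * v) := by rw [cfg.vb]
          _ = (t * b) * v := by group
          _ = (b * t) * v := by rw [cfg.comm t ht b cfg.bT]
          _ = b * (t * v) := by group
  have c1 : Nat.card {c : G // c * b * c⁻¹ = b} = 18 := by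
    calc Nat.card {c : G // c * b * c⁻¹ = b} = Set.ncard {c : G | c * b * c⁻¹ = b} :=
          Nat.card_coe_set_eq _
      _ = 18 := by rw [key1, ncard_union_coset T v hvT, cfg.cardT]
  -- (2) the centralizer of `a * b`
  have habT : a * b ∈ T := T.mul_mem cfg.aT cfg.bT
  have key2 : {c : G | c * (a * b) * c⁻¹ = a * b} = (T : Set G) := by
    apply Set.eq_of_subset_of_subset
    · intro c hc
      have hc' : c * (a * b) = a * b * c := (conj_iff_comm c (a * b)).mp hc
      have hcN : c ∈ Subgroup.normalizer (T : Set G) := by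
        apply cfg.loc (a * b) habT hab1
        rw [Subgroup.mem_centralizer_iff]
        intro h hh
        rw [Set.mem_singleton_iff] at hh
        rw [hh]; exact hc'.symm
      obtain ⟨t, ht, h | h | h | h⟩ := cfg.Nelts c hcN
      · rw [h]; exact ht
      · exfalso
        rw [h] at hc'
        have h1 := comm_cancel (cfg.comm t ht (a * b) habT) hc'
        have h2 : u * (a * b) = a * b⁻¹ * u := by
          calc u * (a * b) = (u * a) * b := by group
            _ = (a * u) * b := by rw [cfg.ua]
            _ = a * (u * b) := by group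
            _ = a * (b⁻¹ * u) := by rw [cfg.ub]
            _ = a * b⁻¹ * u := by group
        rw [h2] at h1
        exact hbinv (mul_left_cancel (mul_right_cancel h1))
      · exfalso
        rw [h] at hc'
        have h1 := comm_cancel (cfg.comm t ht (a * b) habT) hc'
        have h2 : v * (a * b) = a⁻¹ * b * v := by
          calc v * (a * b) = (v * a) * b := by group
            _ = (a⁻¹ * v) * b := by rw [cfg.va]
            _ = a⁻¹ * (v * b) := by group
            _ = a⁻¹ * (b * v) := by rw [cfg.vb]
            _ = a⁻¹ * b * v := by group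
        rw [h2] at h1
        exact hainv (mul_right_cancel (mul_right_cancel h1))
      · exfalso
        rw [h] at hc'
        have h1 := comm_cancel (cfg.comm t ht (a * b) habT) hc'
        have h2 : u * v * (a * b) = a⁻¹ * b⁻¹ * (u * v) := by
          calc u * v * (a * b) = (u * v * a) * b := by group
            _ = (a⁻¹ * (u * v)) * b := by rw [huva]
            _ = a⁻¹ * (u * v * b) := by group
            _ = a⁻¹ * (b⁻¹ * (u * v)) := by rw [huvb]
            _ = a⁻¹ * b⁻¹ * (u * v) := by group
        rw [h2] at h1
        have h3 : a⁻¹ * b⁻¹ = a * b := mul_right_cancel h1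
        have h4 : a ^ 2 * b ^ 2 = 1 := by
          have hba : b * a = a * b := cfg.comm b cfg.bT a cfg.aT
          calc a ^ 2 * b ^ 2 = a * (a * b) * b := by
                rw [pow_two, pow_two]; simp only [mul_assoc]
            _ = a * (a⁻¹ * b⁻¹) * b := by rw [h3]
            _ = 1 := by group
        have h5 := cfg.indep 2 2 h4
        omega
    · intro c hc
      exact (conj_iff_comm c (a * b)).mpr (cfg.comm c hc (a * b) habT)
  have c2 : Nat.card {c : G // c * (a * b) * c⁻¹ = a * b} = 9 := by
    calc Nat.card {c : G // c * (a * b) * c⁻¹ = a * b}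
        = Set.ncard {c : G | c * (a * b) * c⁻¹ = a * b} := Nat.card_coe_set_eq _
      _ = Set.ncard (T : Set G) := by rw [key2]
      _ = Nat.card T := (Nat.card_coe_set_eq _).symm
      _ = 9 := cfg.cardT
  -- (3) the centralizer of `u * a`
  have hua : Commute u a := cfg.ua
  have hu4 : u ^ 4 = 1 := by
    calc u ^ 4 = (u * u) * (u * u) := by
          rw [show (4 : ℕ) = 2 + 2 from rfl, pow_add, pow_two]
      _ = 1 := by rw [cfg.u2, one_mul]
  have hu3 : u ^ 3 = u := by
    calc u ^ 3 = (u * u) * u := by rw [pow_succ, pow_two]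
      _ = u := by rw [cfg.u2, one_mul]
  have ha4 : a ^ 4 = a := by
    calc a ^ 4 = a ^ 3 * a := pow_succ a 3
      _ = a := by rw [cfg.a3, one_mul]
  have h3 : (u * a) ^ 3 = u := by rw [hua.mul_pow, cfg.a3, mul_one, hu3]
  have h4 : (u * a) ^ 4 = a := by rw [hua.mul_pow, hu4, one_mul, ha4]
  have hAT : Subgroup.zpowers a ≤ T := Subgroup.zpowers_le.mpr cfg.aT
  have huA : u ∉ Subgroup.zpowers a := fun h => huT (hAT h)
  have hcardA : Nat.card (Subgroup.zpowers a) = 3 := by
    have : Fact (Nat.Prime 3) := ⟨Nat.prime_three⟩
    rw [Nat.card_zpowers]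
    exact orderOf_eq_prime cfg.a3 ha1
  -- elements of `T` commuting with `u` are powers of `a`
  have hTu : ∀ t ∈ T, t * u = u * t → t ∈ Subgroup.zpowers a := by
    intro t ht htu
    obtain ⟨i, j, rfl⟩ := cfg.Telts t ht
    have h1 : u * a ^ i = a ^ i * u := (hua.pow_right i).eq
    have h2 : u * b ^ j = (b⁻¹) ^ j * u := by
      have hs : SemiconjBy u b b⁻¹ := cfg.ub
      exact (hs.pow_right j).eq
    have h5 : b ^ j * u = (b⁻¹) ^ j * u := by
      have h6 : a ^ i * (b ^ j * u) = a ^ i * (u * b ^ j) := by
        calc a ^ i * (b ^ j * u) = a ^ i * b ^ j * u := by group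
          _ = u * (a ^ i * b ^ j) := htu
          _ = (u * a ^ i) * b ^ j := by group
          _ = (a ^ i * u) * b ^ j := by rw [h1]
          _ = a ^ i * (u * b ^ j) := by group
      rw [← h2]
      exact mul_left_cancel h6
    have h7 : b ^ j = (b ^ j)⁻¹ := by
      have h8 := mul_right_cancel h5
      rw [inv_pow] at h8
      exact h8
    have h9 : a ^ 0 * b ^ (j + j) = 1 := by
      rw [pow_zero, one_mul, pow_add]
      calc b ^ j * b ^ j = (b ^ j)⁻¹ * b ^ j := by rw [← h7]
        _ = 1 := inv_mul_cancel _
    have h10 := (cfg.indep 0 (j + j) h9).2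
    have h11 : 3 ∣ j := by omega
    obtain ⟨m, rfl⟩ := h11
    have h12 : b ^ (3 * m) = 1 := by rw [pow_mul, cfg.b3, one_pow]
    rw [h12, mul_one]
    exact Subgroup.npow_mem_zpowers a i
  have hAcomm : ∀ x ∈ Subgroup.zpowers a, Commute x (u * a) := by
    intro x hx
    have hle : Subgroup.zpowers a ≤ Subgroup.centralizer ({u * a} : Set G) := by
      rw [Subgroup.zpowers_le, Subgroup.mem_centralizer_iff]
      intro h hh
      rw [Set.mem_singleton_iff] at hh
      rw [hh]
      calc u * a * a = (u * a) * a := by group
        _ = (a * u) * a := by rw [cfg.ua]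
        _ = a * (u * a) := by group
    have h1 := (Subgroup.mem_centralizer_iff.mp (hle hx)) (u * a) (Set.mem_singleton _)
    exact h1.symm
  have huua : Commute u (u * a) := by
    show u * (u * a) = u * a * u
    calc u * (u * a) = u * (a * u) := by rw [cfg.ua]
      _ = u * a * u := by group
  have key3 : {c : G | c * (u * a) * c⁻¹ = u * a} =
      (Subgroup.zpowers a : Set G) ∪ (fun t => t * u) '' (Subgroup.zpowers a : Set G) := by
    apply Set.eq_of_subset_of_subset
    · intro c hc
      have hc' : Commute c (u * a) := (conj_iff_comm c (u * a)).mp hc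
      have hcu : Commute c u := by
        have h5 := hc'.pow_right 3
        rwa [h3] at h5
      have hca : Commute c a := by
        have h5 := hc'.pow_right 4
        rwa [h4] at h5
      have hcN : c ∈ Subgroup.normalizer (T : Set G) := by
        apply cfg.loc a cfg.aT ha1
        rw [Subgroup.mem_centralizer_iff]
        intro h hh
        rw [Set.mem_singleton_iff] at hh
        rw [hh]; exact hca.eq.symm
      obtain ⟨t, ht, h | h | h | h⟩ := cfg.Nelts c hcN
      · left
        rw [h]
        apply hTu t ht
        rw [← h]; exact hcu.eq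
      · right
        refine ⟨t, ?_, h.symm⟩
        apply hTu t ht
        have h5 : t * u * u = u * (t * u) := by rw [← h]; exact hcu.eq
        have h6 : (t * u) * u = (u * t) * u := by rw [h5]; group
        exact mul_right_cancel h6
      · exfalso
        have h5 : t * v * a = a * (t * v) := by rw [← h]; exact hca.eq
        have h1 := comm_cancel (cfg.comm t ht a cfg.aT) h5
        rw [cfg.va] at h1
        exact hainv (mul_right_cancel h1)
      · exfalso
        have h5 : t * (u * v) * a = a * (t * (u * v)) := by rw [← h]; exact hca.eq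
        have h1 := comm_cancel (cfg.comm t ht a cfg.aT) h5
        rw [huva] at h1
        exact hainv (mul_right_cancel h1)
    · rintro c (hx | ⟨x, hx, rfl⟩)
      · exact (conj_iff_comm c (u * a)).mpr (hAcomm c hx).eq
      · exact (conj_iff_comm _ (u * a)).mpr ((hAcomm x hx).mul_left huua).eq
  have c3 : Nat.card {c : G // c * (u * a) * c⁻¹ = u * a} = 6 := by
    calc Nat.card {c : G // c * (u * a) * c⁻¹ = u * a}
        = Set.ncard {c : G | c * (u * a) * c⁻¹ = u * a} := Nat.card_coe_set_eq _
      _ = 6 := by rw [key3, ncard_union_coset _ u huA, hcardA]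
  exact ⟨c1, c2, c3⟩

example : Cfsg.Agent.H4.Tn.StCent.{u} := Cfsg.Agent.H37.Tn.cent

end Cfsg.Agent.H37.Tn
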